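import Mathlib
import Cfsg.Prelude.Def_CaseTheorems
import Cfsg.Agent.PGroup.Basic
import Cfsg.Agent.PGroup.ExtraspecialIndex
import Cfsg.Agent.PReduced.Hom

/-!
A 2-group of sectional rank at most 2 containing a subgroup of order at least 8 with commutator
quotient of order 4 has itself commutator quotient of order 4.
-/

set_option autoImplicit false

namespace CfsgLib.RankTwoTwo

open scoped commutatorElement

universe u

theorem index_commutator_equiv {G H : Type*} [Group G] [Group H] (e : G ≃* H) :
    (commutator H).index = (commutator G).index := by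
  have h : (commutator G).map e.toMonoidHom = commutator H := by
    rw [commutator_def, commutator_def, Subgroup.map_commutator,
      Subgroup.map_top_of_surjective _ e.surjective]
  rw [← h]
  exact Subgroup.index_map_equiv _ e

theorem index_ge_four {P : Type*} [Group P] [Finite P] (h2 : IsPGroup 2 P)
    (hna : ∃ a b : P, a * b ≠ b * a) : 4 ≤ (commutator P).index := by
  haveI : Fact (Nat.Prime 2) := ⟨Nat.prime_two⟩
  by_contra hlt
  obtain ⟨a, b, hab⟩ := hna
  have hle : Nat.card (P ⧸ commutator P) ≤ 3 := by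
    rw [← Subgroup.index_eq_card]; omega
  obtain ⟨k, hk⟩ := (h2.to_quotient (commutator P)).exists_card_eq
  have hk1 : k ≤ 1 := by
    by_contra hk1
    have : 2 ^ 2 ≤ 2 ^ k := Nat.pow_le_pow_right (by norm_num) (by omega)
    omega
  obtain ⟨g, hg⟩ : ∃ g : P, ∀ x : P, ∃ n : ℤ, (g ^ n)⁻¹ * x ∈ commutator P := by
    have hc : IsCyclic (P ⧸ commutator P) := by
      interval_cases k
      · have : Subsingleton (P ⧸ commutator P) := (Nat.card_eq_one_iff_unique.1 hk).1
        infer_instance
      · exact isCyclic_of_prime_card (p := 2) (by simpa using hk)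
    obtain ⟨q, hq⟩ := hc.exists_generator
    obtain ⟨g, rfl⟩ := QuotientGroup.mk'_surjective (commutator P) q
    refine ⟨g, fun x => ?_⟩
    obtain ⟨n, hn⟩ := hq (QuotientGroup.mk' _ x)
    exact ⟨n, (QuotientGroup.eq).1 (by simpa using hn)⟩
  have htop : Subgroup.zpowers g = ⊤ := by
    refine frattini_nongenerating (eq_top_iff.2 fun x _ => ?_)
    obtain ⟨n, hn⟩ := hg x
    have := Subgroup.mul_mem_sup (S := Subgroup.zpowers g) (T := frattini P) ⟨n, rfl⟩
      (CfsgLib.PGroup.commutator_le_frattini (p := 2) h2 hn)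
    simpa using this
  obtain ⟨i, rfl⟩ : a ∈ Subgroup.zpowers g := htop ▸ Subgroup.mem_top a
  obtain ⟨j, rfl⟩ : b ∈ Subgroup.zpowers g := htop ▸ Subgroup.mem_top b
  exact hab ((Commute.refl g).zpow_zpow i j).eq

theorem index_le_of_ne_bot {P : Type*} [Group P] [Finite P] {N : Subgroup P} (h2 : IsPGroup 2 P)
    (hN : N ≠ ⊥) {k : ℕ} (hcard : Nat.card P = 2 * k) : N.index ≤ k := by
  haveI : Fact (Nat.Prime 2) := ⟨Nat.prime_two⟩
  have h1 : 2 ≤ Nat.card N := (Subgroup.one_lt_card_iff_ne_bot N).2 hN
  have h3 := N.card_mul_index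
  nlinarith

theorem four_of_order_eight {P : Type*} [Group P] [Finite P] (hcard : Nat.card P = 8)
    (hna : ∃ a b : P, a * b ≠ b * a) : (commutator P).index = 4 := by
  have h2 : IsPGroup 2 P := IsPGroup.of_card (n := 3) (by simpa using hcard)
  refine le_antisymm (index_le_of_ne_bot h2 (fun h => ?_) (k := 4) (by omega)) (index_ge_four h2 hna)
  obtain ⟨a, b, hab⟩ := hna
  refine hab (commutatorElement_eq_one_iff_mul_comm.1 ?_)
  rw [← Subgroup.mem_bot, ← h, commutator_def]
  exact Subgroup.commutator_mem_commutator trivial trivial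

theorem sectional_subgroup {S : Type*} [Group S] (hr : Cfsg.SectionalPRankLE 2 2 S)
    (M : Subgroup S) : Cfsg.SectionalPRankLE 2 2 M := by
  intro H N hN
  let e : H ≃* H.map M.subtype := H.equivMapOfInjective M.subtype M.subtype_injective
  haveI : (N.map e.toMonoidHom).Normal := hN.map _ e.surjective
  intro A hA he
  let q := QuotientGroup.congr N (N.map e.toMonoidHom) e rfl
  rw [← Subgroup.card_map_of_injective (f := q.toMonoidHom) q.injective]
  refine hr (H.map M.subtype) (N.map e.toMonoidHom) _ ⟨⟨?_⟩⟩ ?_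
  · rintro ⟨_, a, ha, rfl⟩ ⟨_, b, hb, rfl⟩
    exact Subtype.ext (by
      simp only [Subgroup.coe_mul, ← map_mul]
      exact congrArg q (congrArg Subtype.val (hA.is_comm.comm ⟨a, ha⟩ ⟨b, hb⟩)))
  · rintro _ ⟨a, ha, rfl⟩
    rw [← map_pow, he a ha, map_one]

theorem sectional_quotient {S : Type*} [Group S] (hr : Cfsg.SectionalPRankLE 2 2 S)
    (Z : Subgroup S) [Z.Normal] : Cfsg.SectionalPRankLE 2 2 (S ⧸ Z) := by
  intro H N hN A hA he
  let π := QuotientGroup.mk' Z
  let f : ↥(H.comap π) →* H ⧸ N :=
    (QuotientGroup.mk' N).comp (π.subgroupComap H)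
  have hf : Function.Surjective f :=
    (QuotientGroup.mk'_surjective N).comp
      (π.subgroupComap_surjective_of_surjective H (QuotientGroup.mk'_surjective Z))
  let e := QuotientGroup.quotientKerEquivOfSurjective f hf
  rw [← Subgroup.card_map_of_injective (f := e.symm.toMonoidHom) e.symm.injective]
  refine hr (H.comap π) f.ker _ ⟨⟨?_⟩⟩ ?_
  · rintro ⟨_, a, ha, rfl⟩ ⟨_, b, hb, rfl⟩
    exact Subtype.ext (by
      simp only [Subgroup.coe_mul, ← map_mul]
      exact congrArg e.symm (congrArg Subtype.val (hA.is_comm.comm ⟨a, ha⟩ ⟨b, hb⟩)))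
  · rintro _ ⟨a, ha, rfl⟩
    rw [← map_pow, he a ha, map_one]

/-- The case of a group of order 16. -/
theorem sixteen {S : Type*} [Group S] [Finite S] (hr : Cfsg.SectionalPRankLE 2 2 S)
    (hcard : Nat.card S = 16) (M : Subgroup S) (hM : Nat.card M = 8)
    (hna : ∃ a ∈ M, ∃ b ∈ M, a * b ≠ b * a) : (commutator S).index = 4 := by
  haveI : Fact (Nat.Prime 2) := ⟨Nat.prime_two⟩
  have h2 : IsPGroup 2 S := IsPGroup.of_card (n := 4) (by simpa using hcard)
  obtain ⟨a, ha, b, hb, hab⟩ := hna
  have hge := index_ge_four h2 ⟨a, b, hab⟩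
  set z := ⁅a, b⁆ with hzdef
  have hz1 : z ≠ 1 := fun h => hab (commutatorElement_eq_one_iff_mul_comm.1 h)
  have hzS : z ∈ commutator S := by
    rw [commutator_def]; exact Subgroup.commutator_mem_commutator trivial trivial
  by_contra h4
  have hsmall : Nat.card (commutator S) = 2 := by
    have h1 := (commutator S).card_mul_index
    obtain ⟨k, hk⟩ := (h2.to_subgroup (commutator S)).exists_card_eq
    have hne : (2:ℕ) ≤ Nat.card (commutator S) :=
      (Subgroup.one_lt_card_iff_ne_bot _).2 (fun h => hz1 (by rwa [h, Subgroup.mem_bot] at hzS))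
    have hk3 : k < 3 := by
      by_contra hk3
      have : 2 ^ 3 ≤ 2 ^ k := Nat.pow_le_pow_right (by norm_num) (by omega)
      rw [hk, hcard] at h1
      nlinarith
    interval_cases k
    · omega
    · simpa using hk
    · exfalso; apply h4; rw [hk, hcard] at h1; omega
  set Z := commutator S with hZdef
  haveI hZn : Z.Normal := by rw [hZdef, commutator_def]; infer_instance
  have hZ2 : ∀ w ∈ Z, w = 1 ∨ w = z := by
    intro w hw
    by_contra hh
    push Not at hh
    have h3 : ({1, z, w} : Set S).ncard = 3 := by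
      rw [Set.ncard_insert_of_notMem, Set.ncard_pair (Ne.symm hh.2)]
      simp only [Set.mem_insert_iff, Set.mem_singleton_iff, not_or]
      exact ⟨hz1.symm, hh.1.symm⟩
    have := Set.ncard_le_ncard (show ({1, z, w} : Set S) ⊆ (Z : Set S) from
      Set.insert_subset Z.one_mem (Set.insert_subset hzS (Set.singleton_subset_iff.2 hw)))
    rw [h3] at this
    have h' : (Z : Set S).ncard = 2 := hsmall
    omega
  have hcen : ∀ w ∈ Z, ∀ x : S, x * w = w * x := by
    intro w hw x
    rcases hZ2 w hw with rfl | rfl
    · simp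
    · rcases hZ2 _ (hZn.conj_mem _ hzS x) with h | h
      · exact absurd (conj_eq_one_iff.1 h) hz1
      · exact mul_inv_eq_iff_eq_mul.1 h
  have hcm : ∀ x y : S, x * y = y * x ∨ x * y = z * (y * x) := by
    intro x y
    have hmem : ⁅x, y⁆ ∈ Z := by
      rw [hZdef, commutator_def]; exact Subgroup.commutator_mem_commutator trivial trivial
    rcases hZ2 _ hmem with h | h
    · exact Or.inl (commutatorElement_eq_one_iff_mul_comm.1 h)
    · right; rw [← h, commutatorElement_def]; group
  have hz2 : z * z = 1 := by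
    rcases hZ2 _ (Z.mul_mem hzS hzS) with h | h
    · exact h
    · exact absurd (mul_eq_left.1 h) hz1
  have hzM : z ∈ M := M.mul_mem (M.mul_mem (M.mul_mem ha hb) (M.inv_mem ha)) (M.inv_mem hb)
  have hba : b * a = z * (a * b) := by
    rcases hcm b a with h | h
    · exact absurd h.symm hab
    · exact h
  -- an element outside `M` commuting with `a` and `b`
  obtain ⟨x, hx⟩ : ∃ x, x ∉ M := by
    by_contra hh; push Not at hh
    rw [(Subgroup.eq_top_iff' M).2 hh, Subgroup.card_top, hcard] at hM; omega
  obtain ⟨y, hy, hya⟩ : ∃ y, y ∉ M ∧ y * a = a * y := by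
    rcases hcm x a with h | h
    · exact ⟨x, hx, h⟩
    · refine ⟨x * b, fun h' => hx ((M.mul_mem_cancel_right hb).1 h'), ?_⟩
      calc x * b * a = x * (b * a) := by group
        _ = x * (z * (a * b)) := by rw [hba]
        _ = z * (x * a) * b := by rw [← mul_assoc x z, hcen z hzS x]; group
        _ = (z * z) * (a * x * b) := by rw [h]; group
        _ = _ := by rw [hz2]; group
  obtain ⟨c, hc, hca, hcb⟩ : ∃ c, c ∉ M ∧ c * a = a * c ∧ c * b = b * c := by
    rcases hcm y b with h | h
    · exact ⟨y, hy, hya, h⟩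
    · refine ⟨y * a, fun h' => hy ((M.mul_mem_cancel_right ha).1 h'), ?_, ?_⟩
      · rw [← mul_assoc a y a, ← hya]
      · have hab' : a * b = z * (b * a) := by rw [hba, ← mul_assoc, hz2, one_mul]
        calc y * a * b = y * (a * b) := by group
          _ = y * (z * (b * a)) := by rw [hab']
          _ = z * (y * b) * a := by rw [← mul_assoc y z, hcen z hzS y]; group
          _ = (z * z) * (b * y * a) := by rw [h]; group
          _ = _ := by rw [hz2]; group
  haveI hMn : M.Normal := (CfsgLib.Extraspecial.normal_of_index_eq (p := 2) h2 (by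
    have := M.card_mul_index; rw [hM, hcard] at this; omega)).1
  have hMi : M.index = 2 := by have := M.card_mul_index; rw [hM, hcard] at this; omega
  -- squares in `M` lie in `Z`
  have hMsq : ∀ m ∈ M, m * m ∈ Z := by
    intro m hm
    have h8 : (commutator M).index = 4 :=
      four_of_order_eight hM ⟨⟨a, ha⟩, ⟨b, hb⟩, fun h => hab (congrArg Subtype.val h)⟩
    have hcM : ∀ w : M, w ∈ commutator M → (w : S) ∈ Z := by
      intro w hw
      have : (commutator M).map M.subtype ≤ Z := by
        rw [commutator_def, Subgroup.map_commutator, hZdef, commutator_def]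
        exact Subgroup.commutator_mono le_top le_top
      exact this ⟨w, hw, rfl⟩
    obtain ⟨q, hq⟩ : ∃ q : M ⧸ commutator M, q = QuotientGroup.mk ⟨m, hm⟩ := ⟨_, rfl⟩
    haveI : (commutator M).Normal := by rw [commutator_def]; infer_instance
    have hd : orderOf q ∣ 2 ^ 2 :=
      (orderOf_dvd_natCard q).trans (dvd_of_eq (by rw [← Subgroup.index_eq_card, h8]; norm_num))
    obtain ⟨i, hi, ho⟩ := (Nat.dvd_prime_pow Nat.prime_two).1 hd
    rcases (show i ≤ 1 ∨ i = 2 by omega) with h | rfl
    · have : q ^ 2 = 1 := orderOf_dvd_iff_pow_eq_one.1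
        (ho ▸ (pow_dvd_pow 2 h).trans (pow_one 2).dvd)
      rw [hq, ← QuotientGroup.mk_pow, QuotientGroup.eq_one_iff, pow_two] at this
      exact hcM _ this
    · exfalso
      -- a cyclic commutator quotient
      have h2M : IsPGroup 2 M := h2.to_subgroup M
      have hgen : ∀ w : M ⧸ commutator M, w ∈ Subgroup.zpowers q := by
        have : IsCyclic (M ⧸ commutator M) :=
          isCyclic_of_orderOf_eq_card q (by rw [ho, ← Subgroup.index_eq_card, h8]; norm_num)
        intro w
        exact (Subgroup.eq_top_iff' _).1 (Subgroup.eq_top_of_card_eq (Subgroup.zpowers q) (by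
          rw [Nat.card_zpowers, ho, ← Subgroup.index_eq_card, h8]; norm_num)) w
      have htop : Subgroup.zpowers (⟨m, hm⟩ : M) = ⊤ := by
        refine frattini_nongenerating (eq_top_iff.2 fun w _ => ?_)
        obtain ⟨n, hn⟩ := hgen (QuotientGroup.mk w)
        rw [hq] at hn
        have hn' : ((⟨m, hm⟩ : M) ^ n)⁻¹ * w ∈ commutator M :=
          QuotientGroup.eq.1 (by simpa using hn)
        have := Subgroup.mul_mem_sup (S := Subgroup.zpowers (⟨m, hm⟩ : M)) (T := frattini M)
          ⟨n, rfl⟩ (CfsgLib.PGroup.commutator_le_frattini (p := 2) h2M hn')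
        simpa using this
      obtain ⟨i, hi⟩ : (⟨a, ha⟩ : M) ∈ Subgroup.zpowers (⟨m, hm⟩ : M) := htop ▸ Subgroup.mem_top _
      obtain ⟨j, hj⟩ : (⟨b, hb⟩ : M) ∈ Subgroup.zpowers (⟨m, hm⟩ : M) := htop ▸ Subgroup.mem_top _
      apply hab
      have := ((Commute.refl (⟨m, hm⟩ : M)).zpow_zpow i j).eq
      simp only at hi hj
      rw [hi, hj] at this
      exact congrArg Subtype.val this
  -- `c * c` is central in `M`, hence in `Z`
  have hcc : c * c ∈ Z := by
    have hmM : c * c ∈ M := by
      rw [Subgroup.mul_mem_iff_of_index_two hMi]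
    set d := c * c with hddef
    have hda : d * a = a * d := ((show Commute c a from hca).mul_left (show Commute c a from hca)).eq
    have hdb : d * b = b * d := ((show Commute c b from hcb).mul_left (show Commute c b from hcb)).eq
    -- the eight elements of `M`
    by_contra hd
    have hcover : ∀ w ∈ M, w ∈ Z ∨ a⁻¹ * w ∈ Z ∨ b⁻¹ * w ∈ Z ∨ (a * b)⁻¹ * w ∈ Z := by
      let ZM := Z.subgroupOf M
      have hZc : Nat.card ZM = 2 := by
        rw [Nat.card_congr (Subgroup.subgroupOfEquivOfLe (fun w hw => by
          rcases hZ2 w hw with rfl | rfl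
          · exact M.one_mem
          · exact hzM)).toEquiv, hsmall]
      have hq4 : Nat.card (M ⧸ ZM) = 4 := by
        have h := ZM.card_mul_index
        rw [hZc, hM, Subgroup.index_eq_card] at h; omega
      let A : M := ⟨a, ha⟩
      let B : M := ⟨b, hb⟩
      have hne : ∀ u v : M, (u : S)⁻¹ * v ∉ Z → (QuotientGroup.mk u : M ⧸ ZM) ≠ QuotientGroup.mk v := by
        intro u v h e; exact h (Subgroup.mem_subgroupOf.1 ((QuotientGroup.eq (s := ZM)).1 e))
      have haZ : a ∉ Z := fun h => hab ((hcen a h b).symm)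
      have hbZ : b ∉ Z := fun h => hab (hcen b h a)
      have habZ : a * b ∉ Z := fun h => by
        have h' := hcen _ h a
        exact hab (mul_left_cancel (a := a) (by rw [h']; group))
      have hab2 : a⁻¹ * b ∉ Z := fun h => by
        have h' := hcen _ h a
        rw [mul_inv_cancel_left, mul_assoc] at h'
        exact hab (by calc a * b = a * (a⁻¹ * (b * a)) := by rw [← h']
                      _ = b * a := by group)
      have huniv : ({QuotientGroup.mk (1 : M), QuotientGroup.mk A, QuotientGroup.mk B,
          QuotientGroup.mk (A * B)} : Set (M ⧸ ZM)) = Set.univ := by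
        apply Set.eq_of_subset_of_ncard_le (Set.subset_univ _)
        rw [Set.ncard_univ, hq4, Set.ncard_insert_of_notMem, Set.ncard_insert_of_notMem,
          Set.ncard_pair]
        · exact hne B (A * B) (fun h => haZ (by
            have := hZn.conj_mem _ h b; simpa [A, B, mul_assoc] using this))
        · simp only [Set.mem_insert_iff, Set.mem_singleton_iff, not_or]
          exact ⟨hne A B hab2, hne A (A * B) (by simpa [A, B] using hbZ)⟩
        · simp only [Set.mem_insert_iff, Set.mem_singleton_iff, not_or]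
          exact ⟨hne 1 A (by simpa [A] using haZ), hne 1 B (by simpa [B] using hbZ),
            hne 1 (A * B) (by simpa [A, B] using habZ)⟩
      intro w hw
      have : (QuotientGroup.mk (⟨w, hw⟩ : M) : M ⧸ ZM) ∈ ({QuotientGroup.mk (1 : M),
          QuotientGroup.mk A, QuotientGroup.mk B, QuotientGroup.mk (A * B)} : Set (M ⧸ ZM)) := by
        rw [huniv]; trivial
      simp only [Set.mem_insert_iff, Set.mem_singleton_iff] at this
      rcases this with h | h | h | h <;>
        have h' := Subgroup.mem_subgroupOf.1 (QuotientGroup.eq.1 h.symm)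
      · left; simpa using h'
      · right; left; exact h'
      · right; right; left; exact h'
      · right; right; right; exact h'
    rcases hcover d hmM with h | h | h | h
    · exact hd h
    · apply hab
      have hc1 : Commute b (d * (a⁻¹ * d)⁻¹) :=
        (show Commute b d from hdb.symm).mul_right (show Commute b (a⁻¹ * d) from hcen _ h b).inv_right
      simpa using hc1.eq.symm
    · apply hab
      have hc1 : Commute a (d * (b⁻¹ * d)⁻¹) :=
        (show Commute a d from hda.symm).mul_right (show Commute a (b⁻¹ * d) from hcen _ h a).inv_right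
      simpa using hc1.eq
    · apply hab
      have hc1 : Commute a (d * ((a * b)⁻¹ * d)⁻¹) :=
        (show Commute a d from hda.symm).mul_right
          (show Commute a ((a * b)⁻¹ * d) from hcen _ h a).inv_right
      rw [mul_inv_rev, inv_inv, mul_inv_cancel_left] at hc1
      exact mul_left_cancel (a := a) (hc1.eq.trans (mul_assoc a b a))
  -- `S / Z` is elementary of order 8
  have hsq : ∀ s : S, s * s ∈ Z := by
    intro s
    by_cases hs : s ∈ M
    · exact hMsq s hs
    · have hm : c⁻¹ * s ∈ M := by
        rw [Subgroup.mul_mem_iff_of_index_two hMi]; simp [hc, hs]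
      set m := c⁻¹ * s with hmdef
      have e : s = c * m := by rw [hmdef]; group
      rcases hcm m c with h | h
      · have : s * s = (c * c) * (m * m) := by
          calc s * s = c * (m * c) * m := by rw [e]; group
            _ = c * (c * m) * m := by rw [h]
            _ = _ := by group
        rw [this]; exact Z.mul_mem hcc (hMsq m hm)
      · have : s * s = z * ((c * c) * (m * m)) := by
          calc s * s = c * (m * c) * m := by rw [e]; group
            _ = c * (z * (c * m)) * m := by rw [h]
            _ = z * (c * (c * m) * m) := by rw [← mul_assoc c z, hcen z hzS c]; group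
            _ = _ := by group
        rw [this]; exact Z.mul_mem hzS (Z.mul_mem hcc (hMsq m hm))
  let π := QuotientGroup.mk' (Z.subgroupOf ⊤)
  have hab' : ∀ u v : ↥(⊤ : Subgroup S) ⧸ Z.subgroupOf ⊤, u * v = v * u := by
    rintro u v
    obtain ⟨⟨u', -⟩, rfl⟩ := QuotientGroup.mk_surjective u
    obtain ⟨⟨v', -⟩, rfl⟩ := QuotientGroup.mk_surjective v
    rw [← QuotientGroup.mk_mul, ← QuotientGroup.mk_mul, QuotientGroup.eq, Subgroup.mem_subgroupOf]
    show (u' * v')⁻¹ * (v' * u') ∈ Z
    rcases hcm v' u' with h | h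
    · rw [h, inv_mul_cancel]; exact Z.one_mem
    · rw [h, ← mul_assoc, hcen z hzS, mul_assoc, inv_mul_cancel, mul_one]; exact hzS
  have hbound := hr ⊤ (Z.subgroupOf ⊤) ⊤ ⟨⟨fun u v => Subtype.ext (hab' u v)⟩⟩ (fun u _ => ?_)
  · rw [Subgroup.card_top, ← Subgroup.index_eq_card] at hbound
    have h1 := (Z.subgroupOf ⊤).card_mul_index
    rw [Nat.card_congr (Subgroup.subgroupOfEquivOfLe (le_top : Z ≤ ⊤)).toEquiv, hsmall,
      Subgroup.card_top, hcard] at h1
    omega
  · obtain ⟨⟨u', -⟩, rfl⟩ := QuotientGroup.mk_surjective u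
    rw [← QuotientGroup.mk_pow, QuotientGroup.eq_one_iff, Subgroup.mem_subgroupOf]
    simpa [pow_two] using hsq u'

theorem four : ∀ (n : ℕ) {S : Type u} [Group S] [Finite S], Nat.card S = n → IsPGroup 2 S →
    Cfsg.SectionalPRankLE 2 2 S →
    ∀ T : Subgroup S, 8 ≤ Nat.card T → (commutator T).index = 4 → (commutator S).index = 4 := by
  intro n
  induction n using Nat.strong_induction_on with
  | _ n ih =>
  intro S _ _ hn h2 hr T hT hTc
  haveI : Fact (Nat.Prime 2) := ⟨Nat.prime_two⟩
  by_cases htop : T = ⊤
  · subst htop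
    rw [index_commutator_equiv Subgroup.topEquiv, hTc]
  obtain ⟨M, hM, hTM⟩ := (eq_top_or_exists_le_coatom T).resolve_left htop
  have hMlt : Nat.card M < n := hn ▸ (Subgroup.card_le_card_group M).lt_of_ne
    (fun h => hM.1 (Subgroup.eq_top_of_card_eq M h))
  have hMc : (commutator M).index = 4 := by
    refine ih _ hMlt rfl (h2.to_subgroup M) (sectional_subgroup hr M) (T.subgroupOf M) ?_ ?_
    · rwa [Nat.card_congr (Subgroup.subgroupOfEquivOfLe hTM).toEquiv]
    · rw [index_commutator_equiv (Subgroup.subgroupOfEquivOfLe hTM).symm, hTc]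
  have hM8 : 8 ≤ Nat.card M := hT.trans (Subgroup.card_le_of_le hTM)
  obtain ⟨i, hi⟩ := (h2.to_subgroup M).exists_card_eq
  haveI : Group.IsNilpotent S := h2.isNilpotent
  obtain ⟨hMn, hMi⟩ := CfsgLib.PGroup.index_coatom (p := 2) h2 hM
  have hcM : (commutator M).map M.subtype ≠ ⊥ := by
    rw [Ne, Subgroup.map_eq_bot_iff_of_injective _ M.subtype_injective]
    intro h
    rw [h, Subgroup.index_bot] at hMc; omega
  have hna : ∃ a ∈ M, ∃ b ∈ M, a * b ≠ b * a := by
    by_contra h
    push Not at h
    apply hcM
    rw [eq_bot_iff, commutator_def, Subgroup.map_commutator, Subgroup.commutator_le]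
    rintro _ ⟨u, -, rfl⟩ _ ⟨v, -, rfl⟩
    rw [Subgroup.mem_bot, commutatorElement_eq_one_iff_mul_comm]
    exact h _ u.2 _ v.2
  have hSn : Nat.card S = 2 * Nat.card M := by
    have := M.card_mul_index; rw [hMi] at this; omega
  rcases hM8.eq_or_lt with h8 | h8
  · exact sixteen hr (by omega) M h8.symm hna
  set W := (commutator M).map M.subtype with hWdef
  haveI hWn : W.Normal := by
    rw [hWdef, commutator_def, Subgroup.map_commutator, ← MonoidHom.range_eq_map,
      Subgroup.range_subtype]
    infer_instance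
  obtain ⟨z, hz, hzord⟩ : ∃ z ∈ W ⊓ Subgroup.center S, orderOf z = 2 := by
    have hne := CfsgLib.PReduced.inf_center_ne_bot (p := 2) h2 hcM
    have hd : 2 ∣ Nat.card ↥(W ⊓ Subgroup.center S) := by
      obtain ⟨j, hj⟩ := (h2.to_subgroup (W ⊓ Subgroup.center S)).exists_card_eq
      have := (Subgroup.one_lt_card_iff_ne_bot _).2 hne
      rw [hj] at this ⊢
      refine dvd_pow_self 2 ?_
      rintro rfl; simp at this
    obtain ⟨⟨z, hz⟩, hzo⟩ := exists_prime_orderOf_dvd_card' 2 hd
    exact ⟨z, hz, by rwa [← Subgroup.orderOf_coe] at hzo⟩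
  set Z := Subgroup.zpowers z with hZdef
  have hZc : Z ≤ Subgroup.center S := Subgroup.zpowers_le.2 hz.2
  haveI : Z.Normal := ⟨fun w hw g => by
    rw [Subgroup.mem_center_iff.1 (hZc hw) g, mul_inv_cancel_right]; exact hw⟩
  set π := QuotientGroup.mk' Z with hπdef
  have hπ : Function.Surjective π := QuotientGroup.mk'_surjective Z
  have hZcard : Nat.card Z = 2 := by rw [hZdef, Nat.card_zpowers, hzord]
  have hQ : Nat.card (S ⧸ Z) * 2 = Nat.card S := by
    rw [← Subgroup.index_eq_card, ← hZcard, Subgroup.index_mul_card]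
  let f : M →* M.map π := π.subgroupMap M
  have hf : Function.Surjective f := π.subgroupMap_surjective M
  have hker : f.ker ≤ commutator M := by
    intro w hw
    have hwZ : (w : S) ∈ Z := (QuotientGroup.eq_one_iff _).1 (congrArg Subtype.val hw)
    obtain ⟨v, hv, hvw⟩ := (Subgroup.zpowers_le.2 hz.1 : Z ≤ W) hwZ
    have : v = w := Subtype.ext hvw
    exact this ▸ hv
  have hfc : (commutator (M.map π)).index = 4 := by
    have : (commutator M).map f = commutator (M.map π) := by
      rw [commutator_def, commutator_def, Subgroup.map_commutator,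
        Subgroup.map_top_of_surjective _ hf]
    rw [← this, Subgroup.index_map_eq _ hf hker, hMc]
  have hmapcard : Nat.card (M.map π) * 2 = Nat.card M := by
    have h1 : f.ker.index = Nat.card (M.map π) := by
      rw [Subgroup.index_ker, MonoidHom.range_eq_top.2 hf, Subgroup.card_top]
    have hZW : Z ≤ M := (Subgroup.zpowers_le.2 hz.1 : Z ≤ W).trans (Subgroup.map_subtype_le _)
    have hk : f.ker = Z.subgroupOf M := by
      ext w
      exact ⟨fun hw => (QuotientGroup.eq_one_iff (N := Z) (w : S)).1 (congrArg Subtype.val hw),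
        fun hw => Subtype.ext ((QuotientGroup.eq_one_iff _).2 hw)⟩
    rw [← h1, hk, mul_comm]
    nth_rw 1 [← hZcard]
    rw [← Nat.card_congr (Subgroup.subgroupOfEquivOfLe hZW).toEquiv]
    exact Subgroup.card_mul_index _
  have h16 : 16 ≤ Nat.card M := by
    have : 2 ^ 3 < 2 ^ i := by omega
    have := (Nat.pow_lt_pow_iff_right (by norm_num : 1 < 2)).1 this
    have : 2 ^ 4 ≤ 2 ^ i := Nat.pow_le_pow_right (by norm_num) this
    omega
  have key := ih (Nat.card (S ⧸ Z)) (by omega) (S := S ⧸ Z) rfl (h2.to_quotient Z)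
    (sectional_quotient hr Z) (M.map π) (by omega) hfc
  have : (commutator S).map π = commutator (S ⧸ Z) := by
    rw [commutator_def, commutator_def, Subgroup.map_commutator,
      Subgroup.map_top_of_surjective _ hπ]
  rw [← this, Subgroup.index_map_eq _ hπ] at key
  · exact key
  · rw [hπdef, QuotientGroup.ker_mk', hZdef, Subgroup.zpowers_le]
    have hW : W ≤ commutator S := by
      rw [hWdef, commutator_def, commutator_def, Subgroup.map_commutator]
      exact Subgroup.commutator_mono le_top le_top
    exact hW hz.1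

end CfsgLib.RankTwoTwo
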