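import Mathlib
import Cfsg.Prelude.Def_OddOrderLocal
import Cfsg.Agent.RankTwoTwo.Basic
import Cfsg.Agent.CoprimeAction.Invariant

/-!
2-groups of sectional rank at most 2 are metacyclic.
-/

set_option autoImplicit false

namespace CfsgLib.RankTwoTwo

open scoped commutatorElement

universe u

variable {S : Type*} [Group S]

theorem closure_comm {s : Set S} (h : ∀ x ∈ s, ∀ y ∈ s, x * y = y * x) :
    ∀ x ∈ Subgroup.closure s, ∀ y ∈ Subgroup.closure s, x * y = y * x := by
  have h1 : Subgroup.closure s ≤ Subgroup.centralizer s :=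
    (Subgroup.closure_le _).2 fun x hx => Subgroup.mem_centralizer_iff.2 fun y hy => h y hy x hx
  have h2 : Subgroup.closure s ≤ Subgroup.centralizer (Subgroup.closure s : Set S) :=
    (Subgroup.closure_le _).2 fun x hx => Subgroup.mem_centralizer_iff.2 fun y hy =>
      (Subgroup.mem_centralizer_iff.1 (h1 hy) x hx).symm
  exact fun x hx y hy => (Subgroup.mem_centralizer_iff.1 (h2 hx) y hy).symm

theorem card_le_four (hr : Cfsg.SectionalPRankLE 2 2 S) (K : Subgroup S)
    (hc : ∀ x ∈ K, ∀ y ∈ K, x * y = y * x) (he : ∀ x ∈ K, x ^ 2 = 1) : Nat.card K ≤ 4 := by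
  let e : S ≃* (↥(⊤ : Subgroup S) ⧸ (⊥ : Subgroup ↥(⊤ : Subgroup S))) :=
    Subgroup.topEquiv.symm.trans QuotientGroup.quotientBot.symm
  rw [← Subgroup.card_map_of_injective (f := e.toMonoidHom) e.injective]
  refine hr ⊤ ⊥ _ ⟨⟨?_⟩⟩ ?_
  · rintro ⟨_, a, ha, rfl⟩ ⟨_, b, hb, rfl⟩
    exact Subtype.ext (by
      simp only [Subgroup.coe_mul, ← map_mul]
      exact congrArg e (hc a ha b hb))
  · rintro _ ⟨a, ha, rfl⟩
    rw [← map_pow, he a ha, map_one]

theorem left_mem (x y : S) : x ∈ Subgroup.closure ({x, y} : Set S) :=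
  Subgroup.subset_closure (Or.inl rfl)

theorem right_mem (x y : S) : y ∈ Subgroup.closure ({x, y} : Set S) :=
  Subgroup.subset_closure (Or.inr rfl)

variable [Finite S]

theorem mem_normalizer_of_conj {N : Subgroup S} {x : S} (h : ∀ w ∈ N, x * w * x⁻¹ ∈ N) :
    x ∈ Subgroup.normalizer (N : Set S) := by
  let f : N → N := fun w => ⟨_, h w w.2⟩
  have hs : Function.Surjective f := Finite.surjective_of_injective fun u v e =>
    Subtype.ext (by simpa [f] using congrArg Subtype.val e)
  rw [Subgroup.mem_normalizer_iff]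
  intro w
  refine ⟨h w, fun hw => ?_⟩
  obtain ⟨u, hu⟩ := hs ⟨_, hw⟩
  have : (u : S) = w := by simpa [f] using congrArg Subtype.val hu
  exact this ▸ u.2

theorem two_mul_card_le {H K : Subgroup S} (h : H < K) : 2 * Nat.card H ≤ Nat.card K := by
  obtain ⟨k, hk⟩ := Subgroup.card_dvd_of_le h.le
  have h0 := Nat.card_pos (α := H)
  have h1 : Nat.card H ≠ Nat.card K := fun e => h.ne (Subgroup.eq_of_le_of_card_ge h.le e.ge)
  rcases k with _ | _ | k
  · have := Nat.card_pos (α := K); omega
  · omega
  · rw [hk]; nlinarith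

theorem three_involutions (hr : Cfsg.SectionalPRankLE 2 2 S) {u v w : S}
    (hu : u ^ 2 = 1) (hv : v ^ 2 = 1) (hw : w ^ 2 = 1) (hu1 : u ≠ 1)
    (hvu : v ∉ Subgroup.zpowers u) (hwuv : w ∉ Subgroup.closure ({u, v} : Set S))
    (huv : u * v = v * u) (huw : u * w = w * u) (hvw : v * w = w * v) : False := by
  set K := Subgroup.closure ({u, v, w} : Set S) with hK
  have hc : ∀ x ∈ ({u, v, w} : Set S), ∀ y ∈ ({u, v, w} : Set S), x * y = y * x := by
    intro x hx y hy
    simp only [Set.mem_insert_iff, Set.mem_singleton_iff] at hx hy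
    rcases hx with rfl | rfl | rfl <;> rcases hy with rfl | rfl | rfl <;>
      first | rfl | assumption | exact huv.symm | exact huw.symm | exact hvw.symm
  have hcK := closure_comm hc
  have he : ∀ x ∈ K, x ^ 2 = 1 := by
    intro x hx
    induction hx using Subgroup.closure_induction with
    | mem x hx =>
      simp only [Set.mem_insert_iff, Set.mem_singleton_iff] at hx
      rcases hx with rfl | rfl | rfl <;> assumption
    | one => simp
    | mul x y hx hy ihx ihy => rw [(show Commute x y from hcK x hx y hy).mul_pow, ihx, ihy, one_mul]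
    | inv x hx ihx => rw [inv_pow, ihx, inv_one]
  have h1 : Subgroup.zpowers u < Subgroup.closure ({u, v} : Set S) :=
    lt_of_le_of_ne (Subgroup.zpowers_le.2 (Subgroup.subset_closure (Set.mem_insert _ _)))
      fun e => hvu (e ▸ Subgroup.subset_closure (Set.mem_insert_of_mem _ rfl))
  have h2 : Subgroup.closure ({u, v} : Set S) < K :=
    lt_of_le_of_ne (Subgroup.closure_mono (by simp [Set.insert_subset_iff]))
      fun e => hwuv (e ▸ Subgroup.subset_closure (by simp))
  have h3 : 2 ≤ Nat.card (Subgroup.zpowers u) :=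
    (Subgroup.one_lt_card_iff_ne_bot _).2 (by simpa using hu1)
  have := two_mul_card_le h1
  have := two_mul_card_le h2
  have := card_le_four hr K hcK he
  omega

theorem exists_two_generators (h2 : IsPGroup 2 S) (hr : Cfsg.SectionalPRankLE 2 2 S) :
    ∃ a b : S, Subgroup.closure ({a, b} : Set S) = ⊤ := by
  haveI : Fact (Nat.Prime 2) := ⟨Nat.prime_two⟩
  set Φ := frattini S with hΦdef
  have hsq : ∀ x : S, x ^ 2 ∈ Φ := fun x => CfsgLib.PGroup.pow_mem_frattini (p := 2) h2 x
  have hle : Nat.card (S ⧸ Φ) ≤ 4 := by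
    have hr' := sectional_quotient hr Φ
    rw [← Subgroup.card_top (G := S ⧸ Φ)]
    refine card_le_four hr' ⊤ (fun x _ y _ => ?_) (fun x _ => ?_)
    · obtain ⟨x, rfl⟩ := QuotientGroup.mk'_surjective Φ x
      obtain ⟨y, rfl⟩ := QuotientGroup.mk'_surjective Φ y
      rw [← commutatorElement_eq_one_iff_mul_comm, ← map_commutatorElement,
        QuotientGroup.mk'_apply, QuotientGroup.eq_one_iff]
      exact CfsgLib.PGroup.commutator_le_frattini (p := 2) h2
        (Subgroup.commutator_mem_commutator (Subgroup.mem_top x) (Subgroup.mem_top y))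
    · obtain ⟨x, rfl⟩ := QuotientGroup.mk'_surjective Φ x
      rw [← map_pow, QuotientGroup.mk'_apply, QuotientGroup.eq_one_iff]
      exact hsq x
  by_cases hc : ∃ a : S, Subgroup.zpowers a ⊔ Φ = ⊤
  · obtain ⟨a, ha⟩ := hc
    refine ⟨a, a, ?_⟩
    rw [Set.pair_eq_singleton, ← Subgroup.zpowers_eq_closure]
    exact frattini_nongenerating ha
  push Not at hc
  obtain ⟨a, ha⟩ : ∃ a : S, a ∉ Φ := by
    by_contra h; push Not at h
    refine hc 1 (eq_top_iff.2 fun x _ => Subgroup.mem_sup_right (h x))
  obtain ⟨b, hb⟩ : ∃ b : S, b ∉ Subgroup.zpowers a ⊔ Φ := by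
    by_contra h; push Not at h
    exact hc a (eq_top_iff.2 fun x _ => h x)
  refine ⟨a, b, frattini_nongenerating ?_⟩
  have h1 : Φ < Subgroup.zpowers a ⊔ Φ :=
    lt_of_le_of_ne le_sup_right fun e => ha (e ▸ Subgroup.mem_sup_left (Subgroup.mem_zpowers a))
  have h2' : Subgroup.zpowers a ⊔ Φ < Subgroup.closure ({a, b} : Set S) ⊔ Φ :=
    lt_of_le_of_ne (sup_le_sup_right (Subgroup.zpowers_le.2
      (Subgroup.subset_closure (Set.mem_insert _ _))) _)
      fun e => hb (e ▸ Subgroup.mem_sup_left (Subgroup.subset_closure (Set.mem_insert_of_mem _ rfl)))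
  apply Subgroup.eq_top_of_card_eq
  show Nat.card ↥(Subgroup.closure ({a, b} : Set S) ⊔ Φ) = Nat.card S
  have := two_mul_card_le h1
  have := two_mul_card_le h2'
  have h4 := Φ.card_mul_index
  rw [Subgroup.index_eq_card] at h4
  have := Subgroup.card_le_card_group (Subgroup.closure ({a, b} : Set S) ⊔ Φ)
  have := Nat.mul_le_mul_left (Nat.card Φ) hle
  omega

omit [Finite S] in
theorem metacyclic_of_generators {g h : S} (hgen : Subgroup.closure ({g, h} : Set S) = ⊤)
    (hn : (Subgroup.zpowers g).Normal) : Cfsg.IsMetacyclic S := by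
  refine ⟨Subgroup.zpowers g, hn, inferInstance,
    ⟨⟨QuotientGroup.mk' (Subgroup.zpowers g) h, fun q => ?_⟩⟩⟩
  obtain ⟨x, rfl⟩ := QuotientGroup.mk'_surjective (Subgroup.zpowers g) q
  have hle : Subgroup.closure ({g, h} : Set S) ≤
      (Subgroup.zpowers (QuotientGroup.mk' (Subgroup.zpowers g) h)).comap
        (QuotientGroup.mk' (Subgroup.zpowers g)) := by
    rw [Subgroup.closure_le]
    rintro y (rfl | rfl)
    · rw [SetLike.mem_coe, Subgroup.mem_comap, show QuotientGroup.mk' (Subgroup.zpowers y) y = 1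
        from (QuotientGroup.eq_one_iff y).2 (Subgroup.mem_zpowers y)]
      exact Subgroup.one_mem _
    · exact Subgroup.mem_zpowers _
  exact hle (hgen ▸ Subgroup.mem_top x)


set_option maxHeartbeats 1000000 in
theorem small_derived (hr : Cfsg.SectionalPRankLE 2 2 S) {a b z : S}
    (hgen : Subgroup.closure ({a, b} : Set S) = ⊤) (hz : z ∈ Subgroup.center S)
    (hz2 : z ^ 2 = 1) (hz1 : z ≠ 1) (hba : b * a = a * b * z)
    (h2 : IsPGroup 2 S) : Cfsg.IsMetacyclic S := by
  have hzc : ∀ x : S, x * z = z * x := fun x => Subgroup.mem_center_iff.1 hz x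
  have hzz : z * z = 1 := by rw [← pow_two]; exact hz2
  set Z := Subgroup.zpowers z with hZ
  haveI hZn : Z.Normal := ⟨fun w hw g => by
    rw [Subgroup.mem_center_iff.1 (Subgroup.zpowers_le.2 hz hw) g, mul_inv_cancel_right]; exact hw⟩
  have hZ2 : ∀ w ∈ Z, w = 1 ∨ w = z := by
    rintro _ ⟨n, rfl⟩
    rcases Int.even_or_odd' n with ⟨k, rfl | rfl⟩
    · left; show z ^ (2 * k) = 1
      rw [zpow_mul, zpow_two, hzz, one_zpow]
    · right; show z ^ (2 * k + 1) = z
      rw [zpow_add, zpow_mul, zpow_two, hzz, one_zpow, one_mul, zpow_one]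
  have hcm : ∀ x y : S, y * x = x * y ∨ y * x = x * y * z := by
    intro x y
    have hall : ∀ x y : S, QuotientGroup.mk' Z x * QuotientGroup.mk' Z y
        = QuotientGroup.mk' Z y * QuotientGroup.mk' Z x := by
      intro x y
      have himg : ∀ q : S ⧸ Z, q ∈ Subgroup.closure
          ({QuotientGroup.mk' Z a, QuotientGroup.mk' Z b} : Set (S ⧸ Z)) := by
        intro q
        obtain ⟨x, rfl⟩ := QuotientGroup.mk'_surjective Z q
        have := Subgroup.mem_map_of_mem (QuotientGroup.mk' Z) (hgen ▸ Subgroup.mem_top x :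
          x ∈ Subgroup.closure ({a, b} : Set S))
        rwa [MonoidHom.map_closure, Set.image_pair] at this
      have e : QuotientGroup.mk' Z b * QuotientGroup.mk' Z a
          = QuotientGroup.mk' Z a * QuotientGroup.mk' Z b := by
        rw [← map_mul, hba, map_mul, map_mul, show QuotientGroup.mk' Z z = 1 from
          (QuotientGroup.eq_one_iff z).2 (Subgroup.mem_zpowers z), mul_one]
      exact closure_comm (s := {QuotientGroup.mk' Z a, QuotientGroup.mk' Z b})
        (by simp only [Set.mem_insert_iff, Set.mem_singleton_iff]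
            rintro _ (rfl | rfl) _ (rfl | rfl) <;> first | rfl | exact e | exact e.symm)
        _ (himg _) _ (himg _)
    have h1 := hall x y
    rw [← map_mul, ← map_mul] at h1
    rcases hZ2 _ ((QuotientGroup.eq).1 h1) with h | h
    · left; exact (inv_mul_eq_one.1 h).symm
    · right; exact inv_mul_eq_iff_eq_mul.1 h
  have hsqc : ∀ x y : S, x * x * y = y * (x * x) := by
    intro x y
    rcases hcm x y with h | h
    · calc x * x * y = x * (x * y) := by group
        _ = (x * y) * x := by rw [← h, ← mul_assoc, ← h]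
        _ = _ := by rw [← h]; group
    · calc x * x * y = x * (x * y * z) * z := by
            rw [mul_assoc x (x * y * z) z, mul_assoc (x * y) z z, hzz]; group
        _ = x * (y * x) * z := by rw [h]
        _ = (x * y * z) * x := by rw [mul_assoc (x * y) z x, ← hzc x]; group
        _ = _ := by rw [← h]; group
  have hnorm : ∀ g : S, z ∈ Subgroup.zpowers g → (Subgroup.zpowers g).Normal := by
    intro g hg
    refine ⟨fun w hw x => ?_⟩
    rcases hcm w x with h | h
    · rw [h, mul_inv_cancel_right]; exact hw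
    · rw [h, mul_assoc w x z, hzc x, ← mul_assoc, mul_inv_cancel_right]
      exact Subgroup.mul_mem _ hw hg
  -- a generator of order two outside the centre
  have hinv : ∀ g h : S, Subgroup.closure ({g, h} : Set S) = ⊤ → g * g = 1 → g * h ≠ h * g →
      Cfsg.IsMetacyclic S := by
    intro g h hgh hg2 hne
    have hgh' : h * g = g * h * z := (hcm g h).resolve_left fun e => hne e.symm
    by_cases hzh : z ∈ Subgroup.zpowers (h * h)
    · exact metacyclic_of_generators (g := h) (h := g) (by rwa [Set.pair_comm])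
        (hnorm h ((Subgroup.zpowers_le.2 (Subgroup.mul_mem _ (Subgroup.mem_zpowers h)
          (Subgroup.mem_zpowers h))) hzh))
    by_cases hh1 : h * h = 1
    · refine metacyclic_of_generators (g := g * h) (h := h) ?_ (hnorm _ ?_)
      · rw [eq_top_iff, ← hgh, Subgroup.closure_le]
        rintro y (rfl | rfl)
        · have := Subgroup.mul_mem (Subgroup.closure ({y * h, h} : Set S))
            (Subgroup.subset_closure (Set.mem_insert _ _))
            (Subgroup.inv_mem _ (Subgroup.subset_closure (Set.mem_insert_of_mem _ rfl)))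
          simpa using this
        · exact Subgroup.subset_closure (Set.mem_insert_of_mem _ rfl)
      · have e : (g * h) * (g * h) = z := by
          calc (g * h) * (g * h) = g * (h * g) * h := by group
            _ = (g * g) * h * (z * h) := by rw [hgh']; group
            _ = h * h * z := by rw [hg2, one_mul, ← hzc h]; group
            _ = z := by rw [hh1, one_mul]
        have : z ∈ ((Subgroup.zpowers (g * h) : Subgroup S) : Set S) := by
          rw [← e]; exact Subgroup.mul_mem _ (Subgroup.mem_zpowers _) (Subgroup.mem_zpowers _)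
        exact this
    -- three commuting involutions
    exfalso
    haveI : Fact (Nat.Prime 2) := ⟨Nat.prime_two⟩
    obtain ⟨k, hk⟩ := h2.to_subgroup (Subgroup.zpowers (h * h)) |>.exists_card_eq
    rw [Nat.card_zpowers] at hk
    have hk0 : k ≠ 0 := fun e => hh1 (orderOf_eq_one_iff.1 (by rw [hk, e, pow_zero]))
    set w := (h * h) ^ 2 ^ (k - 1) with hw
    have hw2 : w ^ 2 = 1 := by
      rw [hw, ← pow_mul, ← pow_succ, show k - 1 + 1 = k by omega, ← hk, pow_orderOf_eq_one]
    have hw1 : w ≠ 1 := by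
      intro e
      have := orderOf_dvd_of_pow_eq_one e
      rw [hk] at this
      have := (Nat.pow_dvd_pow_iff_le_right (by norm_num : 1 < 2)).1 this
      omega
    have hwc : ∀ y : S, w * y = y * w := fun y =>
      ((show Commute (h * h) y from hsqc h y).pow_left _).eq
    have hgC : g ∉ Subgroup.center S := fun e => hne (Subgroup.mem_center_iff.1 e h).symm
    have hwm : w ∈ Subgroup.zpowers (h * h) := Subgroup.npow_mem_zpowers _ _
    refine three_involutions hr (u := z) (v := w) (w := g) hz2 hw2 (by rw [pow_two]; exact hg2)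
      hz1 ?_ ?_ (hzc w).symm (hzc g).symm (hwc g)
    · intro hm
      rcases hZ2 w hm with e | e
      · exact hw1 e
      · exact hzh (e ▸ hwm)
    · intro hm
      apply hgC
      refine (Subgroup.closure_le _).2 ?_ hm
      rintro y (rfl | rfl)
      · exact hz
      · exact Subgroup.mem_center_iff.2 fun x => (hwc x).symm
  -- reduce to a generator of order two or to a cyclic normal subgroup
  have hab : a * b ≠ b * a := fun e => hz1 (mul_eq_left.1 (show a * b * z = a * b by rw [← hba, e]))
  have hTc : ∀ x y : S, Commute (x * x) y := fun x y => hsqc x y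
  by_cases hzT : ∃ i j : ℕ, z = (a * a) ^ i * (b * b) ^ j
  · obtain ⟨i, j, hij⟩ := hzT
    by_cases hi : (a * a) ^ i = 1
    · rw [hi, one_mul] at hij
      exact metacyclic_of_generators (g := b) (h := a) (by rwa [Set.pair_comm])
        (hnorm b (hij ▸ Subgroup.pow_mem _ (Subgroup.mul_mem _ (Subgroup.mem_zpowers b)
          (Subgroup.mem_zpowers b)) j))
    by_cases hj : (b * b) ^ j = 1
    · rw [hj, mul_one] at hij
      exact metacyclic_of_generators (g := a) (h := b) hgen
        (hnorm a (hij ▸ Subgroup.pow_mem _ (Subgroup.mul_mem _ (Subgroup.mem_zpowers a)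
          (Subgroup.mem_zpowers a)) i))
    have hi0 : i ≠ 0 := fun e => hi (by rw [e, pow_zero])
    have hj0 : j ≠ 0 := fun e => hj (by rw [e, pow_zero])
    obtain ⟨s, α, hα, rfl⟩ := Nat.exists_eq_two_pow_mul_odd hi0
    obtain ⟨t, β, hβ, rfl⟩ := Nat.exists_eq_two_pow_mul_odd hj0
    -- general step, with the smaller exponent on `a`
    suffices step : ∀ (a b : S) (s t α β : ℕ), Subgroup.closure ({a, b} : Set S) = ⊤ →
        a * b ≠ b * a → s ≤ t → Odd α → Odd β →
        z = (a * a) ^ (2 ^ s * α) * (b * b) ^ (2 ^ t * β) → Cfsg.IsMetacyclic S by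
      rcases le_total s t with hst | hst
      · exact step a b s t α β hgen hab hst hα hβ hij
      · refine step b a t s β α (by rwa [Set.pair_comm]) hab.symm hst hβ hα ?_
        rw [hij]
        exact ((hTc a _).pow_left _).eq
    clear hij hi hj hi0 hj0 hα hβ hab hba hgen
    intro a b s t α β hgen hne hst hα hβ hij
    have hba : b * a = a * b * z := (hcm a b).resolve_left fun e => hne e.symm
    set m := β * 2 ^ (t - s) with hm
    set g := a ^ α * b ^ m with hg
    have hga : Subgroup.closure ({g, b} : Set S) = ⊤ := by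
      rw [eq_top_iff, ← hgen, Subgroup.closure_le]
      rintro y (rfl | rfl)
      · set C := Subgroup.closure ({g, b} : Set S)
        have h1 : y ^ α ∈ C := by
          have := C.mul_mem (Subgroup.subset_closure (Set.mem_insert _ _))
            (C.inv_mem (C.pow_mem (Subgroup.subset_closure (Set.mem_insert_of_mem _ rfl)) m) :
              (b ^ m)⁻¹ ∈ C)
          simpa [hg] using this
        haveI : Fact (Nat.Prime 2) := ⟨Nat.prime_two⟩
        obtain ⟨k, hk⟩ := (h2.to_subgroup (Subgroup.zpowers y)).exists_card_eq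
        rw [Nat.card_zpowers] at hk
        have hcop : Nat.Coprime (orderOf y) α := by
          rw [hk]; exact Nat.Coprime.pow_left _ ((Nat.coprime_two_left).2 hα)
        obtain ⟨n, hn⟩ := exists_pow_eq_self_of_coprime hcop.symm
        exact hn ▸ C.pow_mem h1 n
      · exact Subgroup.subset_closure (Set.mem_insert_of_mem _ rfl)
    -- squaring
    have hz' : b ^ m * a ^ α = a ^ α * b ^ m * z ^ (m * α) := by
      have h1 : ∀ n : ℕ, b * a ^ n = a ^ n * b * z ^ n := by
        intro n
        induction n with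
        | zero => simp
        | succ n ih =>
          calc b * a ^ (n + 1) = b * a ^ n * a := by rw [pow_succ]; group
            _ = a ^ n * b * (z ^ n * a) := by rw [ih]; group
            _ = a ^ n * (b * a) * z ^ n := by
                rw [← ((show Commute a z from hzc a).pow_right n).eq]; group
            _ = a ^ (n + 1) * b * z ^ (n + 1) := by rw [hba, pow_succ a, pow_succ' z]; group
      generalize m = m'
      induction m' with
      | zero => simp
      | succ n ih =>
        calc b ^ (n + 1) * a ^ α = b ^ n * (b * a ^ α) := by rw [pow_succ]; group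
          _ = (b ^ n * a ^ α) * b * z ^ α := by rw [h1]; group
          _ = a ^ α * b ^ n * (z ^ (n * α) * b) * z ^ α := by rw [ih]; group
          _ = a ^ α * b ^ (n + 1) * z ^ ((n + 1) * α) := by
              rw [← ((show Commute b z from hzc b).pow_right _).eq, pow_succ b, add_mul, one_mul,
                pow_add]
              group
    have hg2 : g * g = (a * a) ^ α * (b * b) ^ m * z ^ (m * α) := by
      calc g * g = a ^ α * (b ^ m * a ^ α) * b ^ m := by rw [hg]; group
        _ = a ^ α * (a ^ α * b ^ m) * (z ^ (m * α) * b ^ m) := by rw [hz']; group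
        _ = a ^ α * (a ^ α * b ^ m) * b ^ m * z ^ (m * α) := by
            rw [← ((show Commute (b ^ m) z from hzc _).pow_right (m * α)).eq]; group
        _ = _ := by
            rw [(Commute.refl a).mul_pow, (Commute.refl b).mul_pow]; group
    have hzeven : ∀ n : ℕ, Even n → z ^ n = 1 := by
      rintro n ⟨k, rfl⟩; rw [← two_mul, pow_mul, hz2, one_pow]
    have hzodd : ∀ n : ℕ, Odd n → z ^ n = z := by
      rintro n ⟨k, rfl⟩; rw [pow_succ, pow_mul, hz2, one_pow, one_mul]
    have hpow : (g * g) ^ 2 ^ s = z * z ^ (m * α * 2 ^ s) := by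
      rw [hg2, ((hTc a _).pow_left _ |>.symm.symm.mul_left
        ((hTc b _).pow_left _)).mul_pow, ((hTc a _).pow_left _).mul_pow, ← pow_mul, ← pow_mul,
        ← pow_mul, hij]
      congr 2
      · congr 1; ring
      · congr 1
        have : 2 ^ t = 2 ^ s * 2 ^ (t - s) := by rw [← pow_add]; congr 1; omega
        rw [hm, this]; ring
    rcases Nat.even_or_odd (m * α * 2 ^ s) with he | ho
    · rw [hzeven _ he, mul_one] at hpow
      refine metacyclic_of_generators hga (hnorm g ?_)
      rw [← hpow]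
      exact Subgroup.pow_mem _ (Subgroup.mul_mem _ (Subgroup.mem_zpowers g)
        (Subgroup.mem_zpowers g)) _
    · have hs0 : s = 0 := by
        by_contra hs
        exact (Nat.not_even_iff_odd.2 ho) (Even.mul_left ((Nat.even_pow).2 ⟨even_two, hs⟩) _)
      subst hs0
      rw [hzodd _ ho, pow_zero, pow_one, hzz] at hpow
      refine hinv g b hga hpow ?_
      rw [hg]
      intro e
      have h1 : b * a ^ α = a ^ α * b := by
        have := congrArg (fun x => x * (b ^ m)⁻¹) e
        simp only [mul_assoc, ← (Commute.self_pow b m).eq, mul_inv_cancel_left] at this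
        simpa [mul_assoc] using this.symm
      have hα1 : b * a ^ α = a ^ α * b * z := by
        obtain ⟨k, rfl⟩ := hα
        have hc : Commute ((a * a) ^ k) b := (hTc a b).pow_left k
        rw [pow_succ, pow_mul, pow_two, ← mul_assoc, ← hc.eq, mul_assoc _ b a, hba]
        group
      rw [h1] at hα1
      exact hz1 (mul_eq_left.1 hα1.symm)
  push Not at hzT
  -- `⟨a², b²⟩` is cyclic
  haveI : Fact (Nat.Prime 2) := ⟨Nat.prime_two⟩
  have key : ∀ a b : S, Subgroup.closure ({a, b} : Set S) = ⊤ → a * b ≠ b * a →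
      (∃ i : ℕ, b * b = (a * a) ^ i) → Cfsg.IsMetacyclic S := by
    rintro a b hgen hne ⟨i, hi⟩
    set c := b * (a ^ i)⁻¹ with hc
    have hgc : Subgroup.closure ({c, a} : Set S) = ⊤ := by
      rw [eq_top_iff, ← hgen, Subgroup.closure_le]
      rintro y (rfl | rfl)
      · exact right_mem c _
      · have := Subgroup.mul_mem (Subgroup.closure ({c, a} : Set S)) (left_mem c a)
          (Subgroup.pow_mem _ (right_mem c a) i)
        rwa [hc, inv_mul_cancel_right] at this
    have hne' : c * a ≠ a * c := by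
      intro e
      apply hne
      have h1 : Commute (c * a ^ i) a := (show Commute c a from e).mul_left (Commute.pow_self a i)
      rw [hc, inv_mul_cancel_right] at h1
      exact h1.eq.symm
    have hcc : c * c = 1 ∨ c * c = z := by
      rcases hcm (a ^ i) b with e | e
      · left
        have e' : Commute b (a ^ i) := e
        rw [hc, ← pow_two, e'.inv_right.mul_pow, pow_two, hi, inv_pow, pow_two,
          (Commute.refl a).mul_pow, mul_inv_cancel]
      · right
        have hbz : b * (a ^ i)⁻¹ = (a ^ i)⁻¹ * b * z := by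
          have : (a ^ i)⁻¹ * (b * a ^ i) * (a ^ i)⁻¹ = (a ^ i)⁻¹ * (a ^ i * b * z) * (a ^ i)⁻¹ := by
            rw [e]
          have e2 : (a ^ i)⁻¹ * b = b * z * (a ^ i)⁻¹ := by simpa [mul_assoc] using this
          rw [e2, mul_assoc, hzc (a ^ i)⁻¹, ← mul_assoc, mul_assoc b z z, hzz, mul_one]
        calc c * c = b * ((a ^ i)⁻¹ * b) * (a ^ i)⁻¹ := by rw [hc]; group
          _ = b * ((a ^ i)⁻¹ * b * z * z) * (a ^ i)⁻¹ := by rw [mul_assoc _ z z, hzz, mul_one]
          _ = b * (b * (a ^ i)⁻¹ * z) * (a ^ i)⁻¹ := by rw [hbz]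
          _ = (b * b) * (a ^ i)⁻¹ * (z * (a ^ i)⁻¹) := by group
          _ = (b * b) * ((a ^ i)⁻¹ * (a ^ i)⁻¹) * z := by rw [← hzc (a ^ i)⁻¹]; group
          _ = z := by rw [hi, (Commute.refl a).mul_pow]; group
    rcases hcc with e | e
    · exact hinv c a hgc e hne'
    · refine metacyclic_of_generators hgc (hnorm c ?_)
      rw [← e]; exact Subgroup.mul_mem _ (Subgroup.mem_zpowers c) (Subgroup.mem_zpowers c)
  let T := Subgroup.closure ({a * a, b * b} : Set S)
  have hTC : ∀ x ∈ T, ∀ y : S, x * y = y * x := by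
    intro x hx y
    refine (Subgroup.mem_center_iff.1 ((Subgroup.closure_le _).2 ?_ hx) y).symm
    rintro w (rfl | rfl) <;> exact Subgroup.mem_center_iff.2 fun v => (hsqc _ v).symm
  haveI : IsMulCommutative T := ⟨⟨fun x y => Subtype.ext (hTC x x.2 y)⟩⟩
  have hTz : ∀ w ∈ T, ∃ i j : ℕ, w = (a * a) ^ i * (b * b) ^ j := by
    intro w hw
    induction hw using Subgroup.closure_induction'' with
    | mem x hx =>
      rcases hx with rfl | rfl
      · exact ⟨1, 0, by simp⟩
      · exact ⟨0, 1, by simp⟩
    | inv_mem x hx =>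
      rcases hx with rfl | rfl
      · obtain ⟨n, hn⟩ := (isOfFinOrder_of_finite (a * a)).mem_powers_iff_mem_zpowers.2
          (Subgroup.inv_mem _ (Subgroup.mem_zpowers (a * a)))
        exact ⟨n, 0, by simpa using hn.symm⟩
      · obtain ⟨n, hn⟩ := (isOfFinOrder_of_finite (b * b)).mem_powers_iff_mem_zpowers.2
          (Subgroup.inv_mem _ (Subgroup.mem_zpowers (b * b)))
        exact ⟨0, n, by simpa using hn.symm⟩
    | one => exact ⟨0, 0, by simp⟩
    | mul x y _ _ ihx ihy =>
      obtain ⟨i, j, rfl⟩ := ihx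
      obtain ⟨i', j', rfl⟩ := ihy
      refine ⟨i + i', j + j', ?_⟩
      rw [pow_add, pow_add, mul_assoc ((a * a) ^ i), ← mul_assoc ((b * b) ^ j),
        ((hTc b _).pow_left j).eq]
      group
  by_cases hcyc : IsCyclic T
  · obtain ⟨⟨g, hgT⟩, hgen'⟩ := hcyc.exists_generator
    have hz' : ∀ x ∈ T, x ∈ Subgroup.zpowers g := by
      intro x hx
      obtain ⟨n, hn⟩ := hgen' ⟨x, hx⟩
      exact ⟨n, congrArg Subtype.val hn⟩
    have hA := hz' _ (Subgroup.subset_closure (Set.mem_insert _ _) : a * a ∈ T)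
    have hB := hz' _ (Subgroup.subset_closure (Set.mem_insert_of_mem _ rfl) : b * b ∈ T)
    haveI : IsCyclic (Subgroup.zpowers g) := inferInstance
    -- subgroups of a cyclic 2-group form a chain
    have chain : Subgroup.zpowers (b * b) ≤ Subgroup.zpowers (a * a) ∨
        Subgroup.zpowers (a * a) ≤ Subgroup.zpowers (b * b) := by
      have aux : ∀ x y : S, x ∈ Subgroup.zpowers g → y ∈ Subgroup.zpowers g →
          orderOf y ∣ orderOf x → Subgroup.zpowers y ≤ Subgroup.zpowers x := by
        intro x y hx hy hd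
        classical
        haveI := Fintype.ofFinite (Subgroup.zpowers g)
        set H := (Subgroup.zpowers x).subgroupOf (Subgroup.zpowers g) with hH
        have hcard : Nat.card H = orderOf x := by
          rw [hH, Nat.card_congr (Subgroup.subgroupOfEquivOfLe (Subgroup.zpowers_le.2 hx)).toEquiv,
            Nat.card_zpowers]
        have hsub : Finset.univ.filter (fun w => w ∈ H) ⊆
            Finset.univ.filter (fun w : Subgroup.zpowers g => w ^ orderOf x = 1) := by
          intro w hw
          simp only [Finset.mem_filter, Finset.mem_univ, true_and] at hw ⊢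
          rw [← hcard]
          exact orderOf_dvd_iff_pow_eq_one.1 (H.orderOf_dvd_natCard hw)
        have heq := Finset.eq_of_subset_of_card_le hsub (by
          refine (IsCyclic.card_pow_eq_one_le (orderOf_pos x)).trans (le_of_eq ?_)
          rw [← hcard, Nat.card_eq_fintype_card, Fintype.card_subtype])
        rw [Subgroup.zpowers_le]
        have hym : (⟨y, hy⟩ : Subgroup.zpowers g) ∈ Finset.univ.filter (fun w => w ∈ H) := by
          rw [heq, Finset.mem_filter]
          refine ⟨Finset.mem_univ _, orderOf_dvd_iff_pow_eq_one.1 ?_⟩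
          rwa [← Subgroup.orderOf_coe]
        exact (Finset.mem_filter.1 hym).2
      obtain ⟨k, hk⟩ := (h2.to_subgroup (Subgroup.zpowers (a * a))).exists_card_eq
      obtain ⟨l, hl⟩ := (h2.to_subgroup (Subgroup.zpowers (b * b))).exists_card_eq
      rw [Nat.card_zpowers] at hk hl
      rcases le_total l k with h | h
      · exact Or.inl (aux _ _ hA hB (hk ▸ hl ▸ pow_dvd_pow 2 h))
      · exact Or.inr (aux _ _ hB hA (hk ▸ hl ▸ pow_dvd_pow 2 h))
    rcases chain with h | h
    · obtain ⟨n, hn⟩ := (isOfFinOrder_of_finite (a * a)).mem_powers_iff_mem_zpowers.2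
        (h (Subgroup.mem_zpowers (b * b)))
      exact key a b hgen hab ⟨n, hn.symm⟩
    · obtain ⟨n, hn⟩ := (isOfFinOrder_of_finite (b * b)).mem_powers_iff_mem_zpowers.2
        (h (Subgroup.mem_zpowers (a * a)))
      exact key b a (by rwa [Set.pair_comm]) hab.symm ⟨n, hn.symm⟩
  · exfalso
    obtain ⟨q, u, v, hq, hu, hv, huq, hvq, hu1, hvu⟩ := CfsgLib.CoprimeAction.exists_rank_two hcyc
    have hq2 : q = 2 := by
      obtain ⟨k, hk⟩ := (h2.to_subgroup (Subgroup.zpowers u)).exists_card_eq
      have := Fact.mk hq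
      rw [Nat.card_zpowers, orderOf_eq_prime huq hu1] at hk
      exact (Nat.prime_dvd_prime_iff_eq hq Nat.prime_two).1 (hq.dvd_of_dvd_pow (dvd_of_eq hk))
    subst hq2
    refine three_involutions hr (u := u) (v := v) (w := z) huq hvq hz2 hu1 hvu ?_
      (hTC u hu v) (hzc u) (hzc v)
    intro hm
    have : z ∈ T := (Subgroup.closure_le _).2 (by rintro w (rfl | rfl) <;> assumption) hm
    obtain ⟨i, j, e⟩ := hTz z this
    exact hzT i j e

set_option maxHeartbeats 1000000 in
theorem metacyclic : ∀ (n : ℕ) {S : Type u} [Group S] [Finite S], Nat.card S = n → IsPGroup 2 S →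
    Cfsg.SectionalPRankLE 2 2 S → Cfsg.IsMetacyclic S := by
  intro n
  induction n using Nat.strong_induction_on with
  | _ n ih =>
  intro S _ _ hn h2 hr
  haveI : Fact (Nat.Prime 2) := ⟨Nat.prime_two⟩
  by_cases hab : ∀ x y : S, x * y = y * x
  · obtain ⟨a, b, hgen⟩ := exists_two_generators h2 hr
    exact metacyclic_of_generators hgen ⟨fun w hw x => by
      rw [hab x w, mul_inv_cancel_right]; exact hw⟩
  haveI hSn : (commutator S).Normal := by rw [commutator_def]; infer_instance
  have hne : commutator S ≠ ⊥ := by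
    intro h
    apply hab
    intro x y
    rw [← commutatorElement_eq_one_iff_mul_comm, ← Subgroup.mem_bot, ← h, commutator_def]
    exact Subgroup.commutator_mem_commutator (Subgroup.mem_top x) (Subgroup.mem_top y)
  obtain ⟨z, hz, hzord⟩ : ∃ z ∈ commutator S ⊓ Subgroup.center S, orderOf z = 2 := by
    have h' := CfsgLib.PReduced.inf_center_ne_bot (p := 2) h2 hne
    have hd : 2 ∣ Nat.card ↥(commutator S ⊓ Subgroup.center S) := by
      obtain ⟨j, hj⟩ := (h2.to_subgroup (commutator S ⊓ Subgroup.center S)).exists_card_eq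
      have := (Subgroup.one_lt_card_iff_ne_bot _).2 h'
      rw [hj] at this ⊢
      refine dvd_pow_self 2 ?_
      rintro rfl; simp at this
    obtain ⟨⟨z, hz⟩, hzo⟩ := exists_prime_orderOf_dvd_card' 2 hd
    exact ⟨z, hz, by rwa [← Subgroup.orderOf_coe] at hzo⟩
  have hz1 : z ≠ 1 := fun e => by rw [e, orderOf_one] at hzord; omega
  have hz2 : z ^ 2 = 1 := hzord ▸ pow_orderOf_eq_one z
  have hzc : ∀ x : S, x * z = z * x := fun x => Subgroup.mem_center_iff.1 hz.2 x
  set Z := Subgroup.zpowers z with hZ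
  haveI : Z.Normal := ⟨fun w hw g => by
    rw [Subgroup.mem_center_iff.1 (Subgroup.zpowers_le.2 hz.2 hw) g, mul_inv_cancel_right]; exact hw⟩
  have hlt : Nat.card (S ⧸ Z) < n := by
    have h := Z.card_mul_index
    rw [Subgroup.index_eq_card, hn] at h
    have : Nat.card Z = 2 := by rw [hZ, Nat.card_zpowers, hzord]
    have := Nat.card_pos (α := S ⧸ Z)
    rw [‹Nat.card Z = 2›] at h
    omega
  obtain ⟨A, hA, hAc, hQc⟩ := ih _ hlt rfl (h2.to_quotient Z) (sectional_quotient hr Z)
  obtain ⟨⟨a', ha'A⟩, hga⟩ := hAc.exists_generator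
  obtain ⟨b', hgb⟩ := hQc.exists_generator
  obtain ⟨b'', rfl⟩ := QuotientGroup.mk'_surjective A b'
  obtain ⟨a, rfl⟩ := QuotientGroup.mk'_surjective Z a'
  obtain ⟨b, rfl⟩ := QuotientGroup.mk'_surjective Z b''
  set π := QuotientGroup.mk' Z with hπ
  have hAa : ∀ q ∈ A, ∃ i : ℤ, q = π a ^ i := by
    intro q hq
    obtain ⟨i, hi⟩ := hga ⟨q, hq⟩
    exact ⟨i, (congrArg Subtype.val hi).symm⟩
  have hgen : Subgroup.closure ({a, b} : Set S) = ⊤ := by
    refine frattini_nongenerating (eq_top_iff.2 fun x _ => ?_)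
    obtain ⟨j, hj⟩ := hgb (QuotientGroup.mk' A (π x))
    simp only at hj
    rw [← map_zpow, QuotientGroup.mk'_eq_mk'] at hj
    obtain ⟨q, hq, hjq⟩ := hj
    obtain ⟨i, rfl⟩ := hAa q hq
    rw [← map_zpow, ← map_zpow, ← map_mul, QuotientGroup.mk'_eq_mk'] at hjq
    obtain ⟨w, hw, hx⟩ := hjq
    rw [← hx]
    refine Subgroup.mul_mem_sup (Subgroup.mul_mem _
      (Subgroup.zpow_mem _ (right_mem a b) j)
      (Subgroup.zpow_mem _ (left_mem a b) i)) ?_
    exact (Subgroup.zpowers_le.2 (CfsgLib.PGroup.commutator_le_frattini (p := 2) h2 hz.1)) hw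
  by_cases hza : z ∈ Subgroup.zpowers a
  · refine metacyclic_of_generators hgen ⟨fun w hw x => ?_⟩
    have hwA : π w ∈ A := by
      obtain ⟨i, rfl⟩ := hw
      show π (a ^ i) ∈ A
      rw [map_zpow]; exact A.zpow_mem ha'A i
    have h1 : π (x * w * x⁻¹) ∈ A := by
      simp only [map_mul, map_inv]; exact hA.conj_mem _ hwA _
    obtain ⟨i, hi⟩ := hAa _ h1
    rw [← map_zpow, QuotientGroup.mk'_eq_mk'] at hi
    obtain ⟨v, hv, e⟩ := hi
    have e' : x * w * x⁻¹ = a ^ i * v⁻¹ := by rw [← e]; group
    rw [e']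
    exact Subgroup.mul_mem _ (Subgroup.zpow_mem _ (Subgroup.mem_zpowers a) i)
      (Subgroup.inv_mem _ ((Subgroup.zpowers_le.2 hza) hv))
  -- the action of `b` on `a`
  obtain ⟨r, hr'⟩ := hAa _ (hA.conj_mem _ ha'A (π b))
  rw [← map_mul, ← map_inv, ← map_mul, ← map_zpow, QuotientGroup.mk'_eq_mk'] at hr'
  obtain ⟨v, ⟨e, rfl⟩, hv⟩ := hr'
  have hzc' : ∀ (x : S) (k : ℤ), Commute (z ^ k) x := fun x k =>
    ((show Commute z x from (hzc x).symm).zpow_left k)
  simp only at hv
  have hbab : b * a * b⁻¹ = a ^ r * z ^ (-e) := by rw [← hv, mul_assoc (b * a * b⁻¹), ← zpow_add]; simp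
  set c := a ^ (r - 1) * z ^ (-e) with hc
  have hbac : b * a = c * (a * b) := by
    calc b * a = (b * a * b⁻¹) * b := by group
      _ = a ^ (r - 1) * (a * z ^ (-e)) * b := by rw [hbab]; group
      _ = a ^ (r - 1) * (z ^ (-e) * a) * b := by rw [(hzc' a (-e)).eq]
      _ = _ := by rw [hc]; group
  have hbc : b * c * b⁻¹ = c ^ r := by
    calc b * c * b⁻¹ = (b * a * b⁻¹) ^ (r - 1) * (b * z ^ (-e) * b⁻¹) := by
          rw [hc, conj_zpow]; group
      _ = (a ^ r * z ^ (-e)) ^ (r - 1) * z ^ (-e) := by
          rw [hbab, ← (hzc' b (-e)).eq, mul_inv_cancel_right]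
      _ = _ := by
          rw [hc, ((hzc' (a ^ r) (-e)).symm).mul_zpow, ((hzc' (a ^ (r - 1)) (-e)).symm).mul_zpow,
            ← zpow_mul, ← zpow_mul, ← zpow_mul, ← zpow_mul, mul_assoc, ← zpow_add]
          ring_nf
  have hcn : (Subgroup.zpowers c).Normal := by
    have hca : Commute a c := ((Commute.self_zpow a (r - 1)).mul_right ((hzc' a (-e)).symm))
    rw [← Subgroup.normalizer_eq_top_iff, eq_top_iff, ← hgen, Subgroup.closure_le]
    intro x hx
    rw [SetLike.mem_coe]
    have hmap : ∀ w ∈ Subgroup.zpowers c, x * w * x⁻¹ ∈ Subgroup.zpowers c := by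
      rintro _ ⟨i, rfl⟩
      show x * c ^ i * x⁻¹ ∈ _
      rw [← conj_zpow]
      refine Subgroup.zpow_mem _ ?_ i
      rcases hx with rfl | rfl
      · rw [hca.eq, mul_inv_cancel_right]; exact Subgroup.mem_zpowers c
      · rw [hbc]; exact Subgroup.zpow_mem _ (Subgroup.mem_zpowers c) r
    exact mem_normalizer_of_conj hmap
  -- the quotient by `⟨c⟩` is abelian
  have hSc : commutator S ≤ Subgroup.zpowers c := by
    set ρ := QuotientGroup.mk' (Subgroup.zpowers c)
    have he : ρ b * ρ a = ρ a * ρ b := by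
      rw [← map_mul, hbac, map_mul, ← map_mul ρ a b]
      rw [show ρ c = 1 from (QuotientGroup.eq_one_iff c).2 (Subgroup.mem_zpowers c), one_mul]
    have himg : ∀ x : S, ρ x ∈ Subgroup.closure ({ρ a, ρ b} : Set _) := by
      intro x
      have := Subgroup.mem_map_of_mem ρ (hgen ▸ Subgroup.mem_top x :
        x ∈ Subgroup.closure ({a, b} : Set S))
      rwa [MonoidHom.map_closure, Set.image_pair] at this
    rw [commutator_def, Subgroup.commutator_le]
    intro x _ y _
    apply (QuotientGroup.eq_one_iff _).1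
    show ρ ⁅x, y⁆ = 1
    rw [map_commutatorElement, commutatorElement_eq_one_iff_mul_comm]
    exact closure_comm (s := {ρ a, ρ b}) (by
      simp only [Set.mem_insert_iff, Set.mem_singleton_iff]
      rintro _ (rfl | rfl) _ (rfl | rfl) <;> first | rfl | exact he | exact he.symm)
      _ (himg x) _ (himg y)
  obtain ⟨k, hk⟩ := hSc hz.1
  simp only at hk
  rw [hc, ((hzc' (a ^ (r - 1)) (-e)).symm).mul_zpow, ← zpow_mul, ← zpow_mul] at hk
  have hpz : ∀ n : ℤ, z ^ n = 1 ∨ z ^ n = z := by
    intro n
    rcases Int.even_or_odd' n with ⟨l, rfl | rfl⟩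
    · left; rw [zpow_mul]; norm_cast; rw [hz2, one_zpow]
    · right; rw [zpow_add, zpow_mul]; norm_cast; rw [hz2, one_zpow, one_mul, pow_one]
  have hodd : Odd k ∧ z ^ (-e) = z ∧ a ^ ((r - 1) * k) = 1 := by
    have hzek : z ^ (-e * k) = z := by
      rcases hpz (-e * k) with h | h
      · rw [h, mul_one] at hk
        exact absurd ⟨_, hk⟩ hza
      · exact h
    rw [hzek, mul_eq_right] at hk
    refine ⟨?_, ?_, hk⟩
    · by_contra hk2
      obtain ⟨l, rfl⟩ := Int.not_odd_iff_even.1 hk2
      apply hz1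
      rw [← hzek, show -e * (l + l) = 2 * (-e * l) by ring, zpow_mul]
      norm_cast; rw [hz2, one_zpow]
    · rcases hpz (-e) with h | h
      · rw [zpow_mul, h, one_zpow] at hzek; exact absurd hzek.symm hz1
      · exact h
  obtain ⟨hk2, hze, hak⟩ := hodd
  have har : a ^ (r - 1) = 1 := by
    obtain ⟨l, hl⟩ := (h2.to_subgroup (Subgroup.zpowers a)).exists_card_eq
    rw [Nat.card_zpowers] at hl
    rw [← orderOf_dvd_iff_zpow_eq_one] at hak ⊢
    rw [hl] at hak ⊢
    refine Int.dvd_of_dvd_mul_left_of_gcd_one hak ?_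
    obtain ⟨w, rfl⟩ := hk2
    show Nat.gcd _ _ = 1
    rw [Int.natAbs_natCast]
    exact Nat.Coprime.pow_left _ ((Nat.coprime_two_left).2 (Int.natAbs_odd.2 ⟨w, rfl⟩))
  have hba : b * a = a * b * z := by
    rw [hbac, hc, har, one_mul, hze, hzc (a * b)]
  exact small_derived hr hgen hz.2 hz2 hz1 hba h2

end CfsgLib.RankTwoTwo
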