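import Mathlib
import Cfsg.Prelude.Def_CaseTheorems
import Cfsg.Agent.PGroup.Basic
import Cfsg.Agent.PReduced.Hom
import Cfsg.Agent.RankTwoTwo.Metacyclic

/-!
Commuting normal nonabelian subgroups with small centres in 2-groups of sectional rank at most 4.
-/

set_option autoImplicit false

namespace CfsgLib.RankTwoTwo.Four

open scoped commutatorElement Pointwise

variable {S : Type*} [Group S]

theorem section_bound {k : ℕ} (hr : Cfsg.SectionalPRankLE 2 k S) (H D : Subgroup S) (hDH : D ≤ H)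
    (hc : ∀ x ∈ H, ∀ y ∈ H, ⁅x, y⁆ ∈ D) (hsq : ∀ x ∈ H, x ^ 2 ∈ D) :
    Nat.card H ≤ 2 ^ k * Nat.card D := by
  haveI : (D.subgroupOf H).Normal := ⟨fun d hd g => by
    rw [Subgroup.mem_subgroupOf] at hd ⊢
    have e : ((g * d * g⁻¹ : H) : S) = ⁅(g : S), (d : S)⁆ * d := by
      simp [commutatorElement_def, mul_assoc]
    rw [e]
    exact D.mul_mem (hc _ g.2 _ d.2) hd⟩
  have hb := hr H (D.subgroupOf H) ⊤ ⟨⟨fun u v => Subtype.ext ?_⟩⟩ (fun u _ => ?_)
  · rw [Subgroup.card_top, ← Subgroup.index_eq_card] at hb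
    have h1 := (D.subgroupOf H).card_mul_index
    rw [Nat.card_congr (Subgroup.subgroupOfEquivOfLe hDH).toEquiv] at h1
    rw [← h1, mul_comm]
    exact Nat.mul_le_mul_right _ hb
  · show (u : H ⧸ D.subgroupOf H) * v = v * u
    obtain ⟨a, ha⟩ := QuotientGroup.mk'_surjective (D.subgroupOf H) u
    obtain ⟨b, hb⟩ := QuotientGroup.mk'_surjective (D.subgroupOf H) v
    rw [← ha, ← hb, ← commutatorElement_eq_one_iff_mul_comm, ← map_commutatorElement,
      QuotientGroup.mk'_apply, QuotientGroup.eq_one_iff, Subgroup.mem_subgroupOf]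
    have : ((⁅a, b⁆ : H) : S) = ⁅(a : S), (b : S)⁆ := map_commutatorElement H.subtype a b
    rw [this]; exact hc _ a.2 _ b.2
  · obtain ⟨a, rfl⟩ := QuotientGroup.mk'_surjective (D.subgroupOf H) u
    rw [← map_pow, QuotientGroup.mk'_apply, QuotientGroup.eq_one_iff, Subgroup.mem_subgroupOf]
    simpa using hsq _ a.2

variable [Finite S]

/-- Frattini subgroup of a nonabelian 2-subgroup, seen in the ambient group. -/
theorem phi_facts (h2 : IsPGroup 2 S) (P : Subgroup S) (hP : ¬ IsMulCommutative ↥P) :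
    (∀ x ∈ P, ∀ y ∈ P, ⁅x, y⁆ ∈ (frattini ↥P).map P.subtype) ∧
    (∀ x ∈ P, x ^ 2 ∈ (frattini ↥P).map P.subtype) ∧
    4 * Nat.card ((frattini ↥P).map P.subtype) ≤ Nat.card P := by
  haveI : Fact (Nat.Prime 2) := ⟨Nat.prime_two⟩
  have hPp : IsPGroup 2 P := h2.to_subgroup P
  refine ⟨fun x hx y hy => ⟨⁅(⟨x, hx⟩ : P), ⟨y, hy⟩⁆,
    CfsgLib.PGroup.commutator_le_frattini (p := 2) hPp
      (Subgroup.commutator_mem_commutator (Subgroup.mem_top _) (Subgroup.mem_top _)),
      map_commutatorElement P.subtype _ _⟩,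
    fun x hx => ⟨(⟨x, hx⟩ : P) ^ 2, CfsgLib.PGroup.pow_mem_frattini (p := 2) hPp _, rfl⟩, ?_⟩
  rw [Subgroup.card_map_of_injective P.subtype_injective]
  have h1 := (frattini ↥P).card_mul_index
  by_contra hlt
  have hi : (frattini ↥P).index ≤ 3 := by
    by_contra h
    exact hlt (h1 ▸ mul_comm 4 (Nat.card (frattini ↥P)) ▸ Nat.mul_le_mul_left _ (by omega))
  -- then `P` would be cyclic
  obtain ⟨j, hj⟩ := (hPp.to_quotient (frattini ↥P)).exists_card_eq
  have hj1 : j ≤ 1 := by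
    rw [Subgroup.index_eq_card, hj] at hi
    by_contra hj1
    have : 2 ^ 2 ≤ 2 ^ j := Nat.pow_le_pow_right (by norm_num) (by omega)
    omega
  have hc : IsCyclic (↥P ⧸ frattini ↥P) := by
    interval_cases j
    · have : Subsingleton (↥P ⧸ frattini ↥P) := (Nat.card_eq_one_iff_unique.1 hj).1
      infer_instance
    · exact isCyclic_of_prime_card (p := 2) (by simpa using hj)
  obtain ⟨q, hq⟩ := hc.exists_generator
  obtain ⟨g, rfl⟩ := QuotientGroup.mk'_surjective (frattini ↥P) q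
  have htop : Subgroup.zpowers g = ⊤ := by
    refine frattini_nongenerating (eq_top_iff.2 fun x _ => ?_)
    obtain ⟨n, hn⟩ := hq (QuotientGroup.mk' _ x)
    have := Subgroup.mul_mem_sup (S := Subgroup.zpowers g) (T := frattini ↥P) ⟨n, rfl⟩
      (QuotientGroup.eq.1 (by simpa using hn) : (g ^ n)⁻¹ * x ∈ frattini ↥P)
    simpa using this
  refine hP ⟨⟨fun a b => ?_⟩⟩
  obtain ⟨i, rfl⟩ : a ∈ Subgroup.zpowers g := htop ▸ Subgroup.mem_top a
  obtain ⟨j, rfl⟩ : b ∈ Subgroup.zpowers g := htop ▸ Subgroup.mem_top b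
  exact ((Commute.refl g).zpow_zpow i j).eq

/-- The involution generating a centre of order two. -/
theorem exists_z (h2 : IsPGroup 2 S) (P : Subgroup S) (hP : ¬ IsMulCommutative ↥P)
    (hZ : Nat.card ↥(Subgroup.center ↥P) = 2) :
    ∃ z : S, z ∈ P ∧ z ≠ 1 ∧ z ∈ (frattini ↥P).map P.subtype ∧ (∀ x ∈ P, x * z = z * x) ∧
      (∀ w ∈ P, (∀ x ∈ P, x * w = w * x) → w = 1 ∨ w = z) ∧
      (Subgroup.center ↥P).map P.subtype = Subgroup.zpowers z := by
  haveI : Fact (Nat.Prime 2) := ⟨Nat.prime_two⟩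
  obtain ⟨⟨z, hz⟩, hzo⟩ := exists_prime_orderOf_dvd_card' (G := Subgroup.center ↥P) 2
    (dvd_of_eq hZ.symm)
  rw [← Subgroup.orderOf_coe] at hzo
  have hzS : orderOf (z : S) = 2 := by rw [Subgroup.orderOf_coe]; exact hzo
  have hC : (Subgroup.center ↥P).map P.subtype = Subgroup.zpowers (z : S) := by
    refine (Subgroup.eq_of_le_of_card_ge (Subgroup.zpowers_le.2
      ((Subgroup.mem_map (f := P.subtype) (K := Subgroup.center ↥P)).2 ⟨z, hz, rfl⟩)) ?_).symm
    rw [Subgroup.card_map_of_injective P.subtype_injective, hZ, Nat.card_zpowers, Subgroup.subtype_apply, hzS]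
  have hmem : ∀ w ∈ P, (∀ x ∈ P, x * w = w * x) → w = 1 ∨ w = (z : S) := by
    intro w hw hc
    have : w ∈ Subgroup.zpowers (z : S) := hC.le ((Subgroup.mem_map (f := P.subtype) (K := Subgroup.center ↥P)).2 ⟨⟨w, hw⟩,
      Subgroup.mem_center_iff.2 fun x => Subtype.ext (hc x x.2), rfl⟩)
    obtain ⟨n, hn⟩ := this
    rw [← hn]
    show (z : S) ^ n = 1 ∨ (z : S) ^ n = z
    rcases Int.even_or_odd' n with ⟨k, rfl | rfl⟩
    · left; rw [zpow_mul, show (z : S) ^ (2 : ℤ) = 1 by exact_mod_cast hzS ▸ pow_orderOf_eq_one (z : S),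
        one_zpow]
    · right; rw [zpow_add, zpow_mul,
        show (z : S) ^ (2 : ℤ) = 1 by exact_mod_cast hzS ▸ pow_orderOf_eq_one (z : S)]; simp
  have hne : commutator ↥P ≠ ⊥ := by
    intro h
    refine hP ⟨⟨fun x y => commutatorElement_eq_one_iff_mul_comm.1 ?_⟩⟩
    rw [← Subgroup.mem_bot, ← h, commutator_def]
    exact Subgroup.commutator_mem_commutator (Subgroup.mem_top x) (Subgroup.mem_top y)
  haveI : (commutator ↥P).Normal := by rw [commutator_def]; infer_instance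
  obtain ⟨⟨w, hw⟩, hw1⟩ := Subgroup.ne_bot_iff_exists_ne_one.1
    (CfsgLib.PReduced.inf_center_ne_bot (p := 2) (h2.to_subgroup P) hne)
  have hwz : (w : S) = z := (hmem w w.2 fun x hx =>
    congrArg Subtype.val (Subgroup.mem_center_iff.1 hw.2 ⟨x, hx⟩)).resolve_left fun e =>
      hw1 (Subtype.ext (Subtype.ext e))
  refine ⟨z, z.2, fun e => ?_, ⟨w, CfsgLib.PGroup.commutator_le_frattini (p := 2)
    (h2.to_subgroup P) hw.1, hwz⟩, fun x hx =>
      congrArg Subtype.val (Subgroup.mem_center_iff.1 hz ⟨x, hx⟩), hmem, hC⟩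
  rw [e, orderOf_one] at hzS; omega

/-- Distinct centres force trivial intersection and commutation. -/
theorem disjoint_commute (h2 : IsPGroup 2 S) (P Q : Subgroup S) [P.Normal] [Q.Normal]
    (hP : ¬ IsMulCommutative ↥P) (hQ : ¬ IsMulCommutative ↥Q)
    (hZP : Nat.card ↥(Subgroup.center ↥P) = 2) (hZQ : Nat.card ↥(Subgroup.center ↥Q) = 2)
    (hne : (Subgroup.center ↥P).map P.subtype ≠ (Subgroup.center ↥Q).map Q.subtype) :
    P ⊓ Q = ⊥ ∧ ∀ x ∈ P, ∀ y ∈ Q, x * y = y * x := by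
  haveI : Fact (Nat.Prime 2) := ⟨Nat.prime_two⟩
  obtain ⟨z, -, -, -, -, hz, hCP⟩ := exists_z h2 P hP hZP
  obtain ⟨z', -, -, -, -, hz', hCQ⟩ := exists_z h2 Q hQ hZQ
  have hbot : P ⊓ Q = ⊥ := by
    by_contra h
    obtain ⟨⟨w, ⟨hwP, hwQ⟩, hwc⟩, hw1⟩ := Subgroup.ne_bot_iff_exists_ne_one.1
      (CfsgLib.PReduced.inf_center_ne_bot (p := 2) h2 h)
    have hw1' : w ≠ 1 := fun e => hw1 (Subtype.ext e)
    have e1 := (hz w hwP fun x _ => Subgroup.mem_center_iff.1 hwc x).resolve_left hw1'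
    have e2 := (hz' w hwQ fun x _ => Subgroup.mem_center_iff.1 hwc x).resolve_left hw1'
    exact hne (by rw [hCP, hCQ, ← e1, ← e2])
  exact ⟨hbot, fun x hx y hy =>
    Subgroup.commute_of_normal_of_disjoint P Q inferInstance inferInstance
      (disjoint_iff.2 hbot) x y hx hy⟩

theorem card_sup_mul (P Q : Subgroup S) [P.Normal] (h : P ⊓ Q = ⊥) :
    Nat.card ↥(P ⊔ Q) = Nat.card P * Nat.card Q := by
  let f : P × Q → ↥(P ⊔ Q) := fun a => ⟨a.1 * a.2, Subgroup.mul_mem_sup a.1.2 a.2.2⟩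
  have hf : Function.Bijective f := by
    constructor
    · rintro ⟨a, b⟩ ⟨a', b'⟩ e
      have e' : (a : S) * b = a' * b' := congrArg Subtype.val e
      have h1 : (a' : S)⁻¹ * a = b' * (b : S)⁻¹ := by
        rw [inv_mul_eq_iff_eq_mul, ← mul_assoc, ← e', mul_inv_cancel_right]
      have h2 : (a' : S)⁻¹ * a = 1 := (Subgroup.eq_bot_iff_forall _).1 h _
        ⟨P.mul_mem (P.inv_mem a'.2) a.2, h1 ▸ Q.mul_mem b'.2 (Q.inv_mem b.2)⟩
      have ha : a = a' := Subtype.ext (inv_mul_eq_one.1 h2).symm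
      subst ha
      exact Prod.ext rfl (Subtype.ext (mul_left_cancel e'))
    · rintro ⟨w, hw⟩
      obtain ⟨a, ha, b, hb, e⟩ := Subgroup.mem_sup_of_normal_left.1 hw
      exact ⟨(⟨a, ha⟩, ⟨b, hb⟩), Subtype.ext e⟩
  rw [← Nat.card_congr (Equiv.ofBijective f hf), Nat.card_prod]

/-- `S4400`: the join is self-centralizing. -/
theorem centralizer_le (h2 : IsPGroup 2 S) (hr : Cfsg.SectionalPRankLE 2 4 S)
    (P Q : Subgroup S) [P.Normal] [Q.Normal] (hP : ¬ IsMulCommutative ↥P) (hQ : ¬ IsMulCommutative ↥Q)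
    (hZP : Nat.card ↥(Subgroup.center ↥P) = 2) (hZQ : Nat.card ↥(Subgroup.center ↥Q) = 2)
    (hne : (Subgroup.center ↥P).map P.subtype ≠ (Subgroup.center ↥Q).map Q.subtype) :
    Subgroup.centralizer ((P ⊔ Q : Subgroup S) : Set S) ≤ P ⊔ Q := by
  classical
  haveI : Fact (Nat.Prime 2) := ⟨Nat.prime_two⟩
  obtain ⟨hbot, hcomm⟩ := disjoint_commute h2 P Q hP hQ hZP hZQ hne
  obtain ⟨z, -, -, hzΦ, -, hz, -⟩ := exists_z h2 P hP hZP
  obtain ⟨z', -, -, hzΦ', -, hz', -⟩ := exists_z h2 Q hQ hZQ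
  obtain ⟨cP, sP, nP⟩ := phi_facts h2 P hP
  obtain ⟨cQ, sQ, nQ⟩ := phi_facts h2 Q hQ
  intro x hx
  by_contra hxK
  -- an element of the centraliser whose square lies in the join
  obtain ⟨k, hk⟩ := h2 x
  have hex : ∃ j, x ^ 2 ^ j ∈ P ⊔ Q := ⟨k, by rw [hk]; exact Subgroup.one_mem _⟩
  have hj0 : Nat.find hex ≠ 0 := fun e => hxK (by simpa [e] using Nat.find_spec hex)
  set c := x ^ 2 ^ (Nat.find hex - 1) with hc
  have hcK : c ∉ P ⊔ Q := Nat.find_min hex (by omega)
  have hc2 : c ^ 2 ∈ P ⊔ Q := by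
    rw [hc, ← pow_mul, ← pow_succ, show Nat.find hex - 1 + 1 = Nat.find hex by omega]
    exact Nat.find_spec hex
  have hcC : ∀ w ∈ P ⊔ Q, w * c = c * w :=
    Subgroup.mem_centralizer_iff.1 (Subgroup.pow_mem _ hx _)
  have hcP : ∀ a ∈ P, a * c = c * a := fun a ha => hcC a (Subgroup.mem_sup_left ha)
  have hcQ : ∀ a ∈ Q, a * c = c * a := fun a ha => hcC a (Subgroup.mem_sup_right ha)
  set ΦP := (frattini ↥P).map P.subtype with hΦP
  set ΦQ := (frattini ↥Q).map Q.subtype with hΦQ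
  haveI : ΦP.Normal := ConjAct.normal_of_characteristic_of_normal
  haveI : ΦQ.Normal := ConjAct.normal_of_characteristic_of_normal
  have hPP : ΦP ≤ P := Subgroup.map_subtype_le _
  have hQQ : ΦQ ≤ Q := Subgroup.map_subtype_le _
  set D := ΦP ⊔ ΦQ with hD
  -- the square of `c` lies in `D`
  have hc2D : c ^ 2 ∈ D := by
    obtain ⟨a, ha, b, hb, e⟩ := Subgroup.mem_sup_of_normal_left.1 hc2
    have ha' : a = 1 ∨ a = z := hz a ha fun y hy => by
      have h1 : Commute y (c ^ 2) := (show Commute y c from hcP y hy).pow_right 2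
      have h3 : Commute y b := hcomm y hy b hb
      have h4 : Commute y (c ^ 2 * b⁻¹) := h1.mul_right h3.inv_right
      rw [← e, mul_inv_cancel_right] at h4
      exact h4.eq
    have hb' : b = 1 ∨ b = z' := hz' b hb fun y hy => by
      have h1 : Commute y (c ^ 2) := (show Commute y c from hcQ y hy).pow_right 2
      have h3 : Commute y a := (hcomm a ha y hy).symm
      have h4 : Commute y (a⁻¹ * c ^ 2) := h3.inv_right.mul_right h1
      rw [← e, inv_mul_cancel_left] at h4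
      exact h4.eq
    rw [← e]
    exact Subgroup.mul_mem_sup
      (by rcases ha' with rfl | rfl; exacts [Subgroup.one_mem _, hzΦ])
      (by rcases hb' with rfl | rfl; exacts [Subgroup.one_mem _, hzΦ'])
  -- the enlarged subgroup
  set H := (P ⊔ Q) ⊔ Subgroup.zpowers c with hH
  have hform : ∀ w ∈ H, ∃ a ∈ P, ∃ b ∈ Q, ∃ n : ℤ, w = a * b * c ^ n := by
    intro w hw
    obtain ⟨u, hu, v, ⟨n, rfl⟩, e⟩ := Subgroup.mem_sup_of_normal_left.1 hw
    obtain ⟨a, ha, b, hb, e'⟩ := Subgroup.mem_sup_of_normal_left.1 hu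
    exact ⟨a, ha, b, hb, n, by rw [← e, ← e']⟩
  have hDn : D.Normal := by rw [hD]; infer_instance
  have hgcomm : ∀ u ∈ H, ∀ v ∈ H, ⁅u, v⁆ ∈ D := by
    intro u hu v hv
    obtain ⟨a, ha, b, hb, n, rfl⟩ := hform u hu
    obtain ⟨a', ha', b', hb', m, rfl⟩ := hform v hv
    apply (QuotientGroup.eq_one_iff _).1
    show QuotientGroup.mk' D ⁅a * b * c ^ n, a' * b' * c ^ m⁆ = 1
    rw [map_commutatorElement, commutatorElement_eq_one_iff_mul_comm]
    set π := QuotientGroup.mk' D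
    have k1 : Commute (π a) (π a') := by
      show π a * π a' = π a' * π a
      rw [← commutatorElement_eq_one_iff_mul_comm, ← map_commutatorElement]
      exact (QuotientGroup.eq_one_iff _).2 (Subgroup.mem_sup_left (cP a ha a' ha'))
    have k2 : Commute (π b) (π b') := by
      show π b * π b' = π b' * π b
      rw [← commutatorElement_eq_one_iff_mul_comm, ← map_commutatorElement]
      exact (QuotientGroup.eq_one_iff _).2 (Subgroup.mem_sup_right (cQ b hb b' hb'))
    have k3 : Commute (π a) (π b') := (show Commute a b' from hcomm a ha b' hb').map π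
    have k4 : Commute (π b) (π a') := (show Commute a' b from hcomm a' ha' b hb).symm.map π
    have k5 : ∀ y, y * c = c * y → ∀ i : ℤ, Commute (π y) (π c ^ i) := fun y hy i =>
      ((show Commute y c from hy).map π).zpow_right i
    simp only [map_mul, map_zpow]
    exact ((((k1.mul_right k3).mul_right (k5 a (hcP a ha) m)).mul_left
      ((k4.mul_right k2).mul_right (k5 b (hcQ b hb) m))).mul_left
      (((k5 a' (hcP a' ha') n).symm.mul_right (k5 b' (hcQ b' hb') n).symm).mul_right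
        ((Commute.refl (π c)).zpow_zpow n m))).eq
  have hsq : ∀ u ∈ H, u ^ 2 ∈ D := by
    intro u hu
    obtain ⟨a, ha, b, hb, n, rfl⟩ := hform u hu
    have e : (a * b * c ^ n) ^ 2 = a ^ 2 * b ^ 2 * (c ^ 2) ^ n := by
      rw [(((show Commute a c from hcP a ha).mul_left (show Commute b c from hcQ b hb)).zpow_right n).mul_pow,
        (show Commute a b from hcomm a ha b hb).mul_pow]
      congr 1
      rw [← zpow_natCast (c ^ n), ← zpow_natCast c, ← zpow_mul, ← zpow_mul, mul_comm]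
    rw [e]
    exact D.mul_mem (D.mul_mem (Subgroup.mem_sup_left (sP a ha))
      (Subgroup.mem_sup_right (sQ b hb))) (D.zpow_mem hc2D n)
  have hb := section_bound hr H D (sup_le_sup hPP hQQ |>.trans le_sup_left) hgcomm hsq
  have hDc : Nat.card D = Nat.card ΦP * Nat.card ΦQ :=
    card_sup_mul ΦP ΦQ (eq_bot_iff.2 (hbot ▸ inf_le_inf hPP hQQ))
  have hlt : P ⊔ Q < H := lt_of_le_of_ne le_sup_left fun e =>
    hcK (e ▸ Subgroup.mem_sup_right (Subgroup.mem_zpowers c))
  obtain ⟨t, ht⟩ := Subgroup.card_dvd_of_le hlt.le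
  have ht2 : 2 ≤ t := by
    rcases t with _ | _ | t
    · have := Nat.card_pos (α := H); omega
    · exact absurd (Subgroup.eq_of_le_of_card_ge hlt.le (by omega)) hlt.ne
    · omega
  rw [ht, card_sup_mul P Q hbot, hDc] at hb
  have h16 := Nat.mul_le_mul nP nQ
  have hpos : 0 < Nat.card ΦP * Nat.card ΦQ := Nat.mul_pos Nat.card_pos Nat.card_pos
  nlinarith

theorem sectional_of_subgroup {k : ℕ} (hr : Cfsg.SectionalPRankLE 2 k S) (M : Subgroup S) :
    Cfsg.SectionalPRankLE 2 k M := by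
  intro H N hN
  let e : H ≃* H.map M.subtype := H.equivMapOfInjective M.subtype M.subtype_injective
  haveI : (N.map e.toMonoidHom).Normal := hN.map _ e.surjective
  intro A hA he
  let q := QuotientGroup.congr N (N.map e.toMonoidHom) e rfl
  rw [← Subgroup.card_map_of_injective (f := q.toMonoidHom) q.injective]
  refine hr (H.map M.subtype) (N.map e.toMonoidHom) _ ⟨⟨?_⟩⟩ ?_
  · rintro ⟨_, a, ha, rfl⟩ ⟨_, b, hb, rfl⟩
    exact Subtype.ext (by
      simp only [Subgroup.coe_mul, ← map_mul]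
      exact congrArg q (congrArg Subtype.val (hA.is_comm.comm ⟨a, ha⟩ ⟨b, hb⟩)))
  · rintro _ ⟨a, ha, rfl⟩
    rw [← map_pow, he a ha, map_one]

/-- A commuting disjoint nonabelian partner forces sectional rank at most two. -/
theorem sectional_le_two (h2 : IsPGroup 2 S) (hr : Cfsg.SectionalPRankLE 2 4 S)
    (P Q : Subgroup S) (hQ : ¬ IsMulCommutative ↥Q) (hbot : P ⊓ Q = ⊥)
    (hcomm : ∀ x ∈ P, ∀ y ∈ Q, x * y = y * x) : Cfsg.SectionalPRankLE 2 2 P := by
  classical
  intro H N _ A hA hAe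
  obtain ⟨cQ, sQ, nQ⟩ := phi_facts h2 Q hQ
  set ΦQ := (frattini ↥Q).map Q.subtype with hΦQ
  let A0 : Subgroup H := A.comap (QuotientGroup.mk' N)
  let e : H →* S := P.subtype.comp H.subtype
  have he : Function.Injective e := P.subtype_injective.comp H.subtype_injective
  set A1 := A0.map e with hA1
  set N1 := N.map e with hN1
  have hNA : N1 ≤ A1 := Subgroup.map_mono fun x hx => by
    show QuotientGroup.mk' N x ∈ A
    rw [show QuotientGroup.mk' N x = 1 from (QuotientGroup.eq_one_iff x).2 hx]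
    exact A.one_mem
  have hAP : A1 ≤ P := by rintro _ ⟨x, -, rfl⟩; exact (x : P).2
  have hcardA : Nat.card A * Nat.card N = Nat.card A0 := by
    have h1 := (N.subgroupOf A0).card_mul_index
    have hNA0 : N ≤ A0 := fun x hx => by
      show QuotientGroup.mk' N x ∈ A
      rw [show QuotientGroup.mk' N x = 1 from (QuotientGroup.eq_one_iff x).2 hx]
      exact A.one_mem
    rw [Nat.card_congr (Subgroup.subgroupOfEquivOfLe hNA0).toEquiv] at h1
    let f := (QuotientGroup.mk' N).subgroupComap A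
    have hf : Function.Surjective f :=
      (QuotientGroup.mk' N).subgroupComap_surjective_of_surjective A
        (QuotientGroup.mk'_surjective N)
    have hk : f.ker = N.subgroupOf A0 := by
      ext x
      exact ⟨fun hx => (QuotientGroup.eq_one_iff (N := N) (x : H)).1 (congrArg Subtype.val hx),
        fun hx => Subtype.ext ((QuotientGroup.eq_one_iff (N := N) (x : H)).2 hx)⟩
    rw [← hk, Subgroup.index_ker, MonoidHom.range_eq_top.2 hf, Subgroup.card_top, mul_comm] at h1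
    exact h1
  have hQQ : ΦQ ≤ Q := Subgroup.map_subtype_le _
  -- the subgroups of the product
  let mk : ∀ (X Y : Subgroup S), X ≤ P → Y ≤ Q → Subgroup S := fun X Y hX hY =>
    { carrier := {w | ∃ a ∈ X, ∃ b ∈ Y, w = a * b}
      one_mem' := ⟨1, X.one_mem, 1, Y.one_mem, (one_mul 1).symm⟩
      mul_mem' := by
        rintro _ _ ⟨a, ha, b, hb, rfl⟩ ⟨a', ha', b', hb', rfl⟩
        refine ⟨a * a', X.mul_mem ha ha', b * b', Y.mul_mem hb hb', ?_⟩
        rw [mul_assoc a b, ← mul_assoc b a', ← hcomm a' (hX ha') b (hY hb)]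
        group
      inv_mem' := by
        rintro _ ⟨a, ha, b, hb, rfl⟩
        refine ⟨a⁻¹, X.inv_mem ha, b⁻¹, Y.inv_mem hb, ?_⟩
        rw [mul_inv_rev, hcomm _ (P.inv_mem (hX ha)) _ (Q.inv_mem (hY hb))] }
  have hmk : ∀ (X Y : Subgroup S) (hX : X ≤ P) (hY : Y ≤ Q),
      Nat.card (mk X Y hX hY) = Nat.card X * Nat.card Y := by
    intro X Y hX hY
    let f : X × Y → mk X Y hX hY := fun a => ⟨a.1 * a.2, a.1, a.1.2, a.2, a.2.2, rfl⟩
    have hf : Function.Bijective f := by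
      constructor
      · rintro ⟨a, b⟩ ⟨a', b'⟩ e
        have e' : (a : S) * b = a' * b' := congrArg Subtype.val e
        have h1 : (a' : S)⁻¹ * a = b' * (b : S)⁻¹ := by
          rw [inv_mul_eq_iff_eq_mul, ← mul_assoc, ← e', mul_inv_cancel_right]
        have h2 : (a' : S)⁻¹ * a = 1 := (Subgroup.eq_bot_iff_forall _).1 hbot _
          ⟨P.mul_mem (P.inv_mem (hX a'.2)) (hX a.2),
            h1 ▸ Q.mul_mem (hY b'.2) (Q.inv_mem (hY b.2))⟩
        have ha : a = a' := Subtype.ext (inv_mul_eq_one.1 h2).symm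
        subst ha
        exact Prod.ext rfl (Subtype.ext (mul_left_cancel e'))
      · rintro ⟨w, a, ha, b, hb, rfl⟩
        exact ⟨(⟨a, ha⟩, ⟨b, hb⟩), rfl⟩
    rw [← Nat.card_congr (Equiv.ofBijective f hf), Nat.card_prod]
  set T := mk A1 Q hAP le_rfl with hT
  set D := mk N1 ΦQ (hNA.trans hAP) hQQ with hD
  have hDT : D ≤ T := by
    rintro _ ⟨a, ha, b, hb, rfl⟩; exact ⟨a, hNA ha, b, hQQ hb, rfl⟩
  have hcN : ∀ a ∈ A1, ∀ a' ∈ A1, ⁅a, a'⁆ ∈ N1 := by
    rintro _ ⟨x, hx, rfl⟩ _ ⟨y, hy, rfl⟩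
    refine ⟨⁅x, y⁆, ?_, map_commutatorElement e x y⟩
    rw [SetLike.mem_coe, ← QuotientGroup.eq_one_iff]
    show QuotientGroup.mk' N ⁅x, y⁆ = 1
    rw [map_commutatorElement, commutatorElement_eq_one_iff_mul_comm]
    exact congrArg Subtype.val (hA.is_comm.comm ⟨_, hx⟩ ⟨_, hy⟩)
  have hsN : ∀ a ∈ A1, a ^ 2 ∈ N1 := by
    rintro _ ⟨x, hx, rfl⟩
    exact ⟨x ^ 2, (QuotientGroup.eq_one_iff _).1 (hAe _ hx), map_pow e x 2⟩
  have hc : ∀ u ∈ T, ∀ v ∈ T, ⁅u, v⁆ ∈ D := by
    rintro _ ⟨a, ha, b, hb, rfl⟩ _ ⟨a', ha', b', hb', rfl⟩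
    refine ⟨⁅a, a'⁆, hcN a ha a' ha', ⁅b, b'⁆, cQ b hb b' hb', ?_⟩
    have k1 : Commute b a' := (hcomm a' (hAP ha') b hb).symm
    have k2 : Commute b (a⁻¹) := (hcomm _ (P.inv_mem (hAP ha)) b hb).symm
    have k3 : Commute b' (a⁻¹) := (hcomm _ (P.inv_mem (hAP ha)) b' hb').symm
    have k5 : Commute b⁻¹ (a'⁻¹) :=
      (hcomm _ (P.inv_mem (hAP ha')) _ (Q.inv_mem hb)).symm
    have k6 : Commute (b' : S) a'⁻¹ := (hcomm _ (P.inv_mem (hAP ha')) b' hb').symm
    calc ⁅a * b, a' * b'⁆ = a * (b * a') * b' * b⁻¹ * a⁻¹ * b'⁻¹ * a'⁻¹ := by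
          rw [commutatorElement_def]; group
      _ = a * a' * (b * b' * b⁻¹) * a⁻¹ * b'⁻¹ * a'⁻¹ := by rw [k1.eq]; group
      _ = a * a' * ((b * b' * b⁻¹) * a⁻¹) * b'⁻¹ * a'⁻¹ := by group
      _ = a * a' * (a⁻¹ * (b * b' * b⁻¹)) * b'⁻¹ * a'⁻¹ := by
          rw [((k2.mul_left k3).mul_left k2.inv_left).eq]
      _ = a * a' * a⁻¹ * ((b * b' * b⁻¹ * b'⁻¹) * a'⁻¹) := by group
      _ = a * a' * a⁻¹ * (a'⁻¹ * (b * b' * b⁻¹ * b'⁻¹)) := by
          have k4 : Commute b a'⁻¹ := (hcomm _ (P.inv_mem (hAP ha')) b hb).symm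
          rw [(((k4.mul_left k6).mul_left k5).mul_left k6.inv_left).eq]
      _ = _ := by rw [commutatorElement_def, commutatorElement_def]; group
  have hsq : ∀ u ∈ T, u ^ 2 ∈ D := by
    rintro _ ⟨a, ha, b, hb, rfl⟩
    exact ⟨a ^ 2, hsN a ha, b ^ 2, sQ b hb,
      (show Commute a b from hcomm a (hAP ha) b hb).mul_pow 2⟩
  have hb := section_bound hr T D hDT hc hsq
  rw [hT, hD, hmk A1 Q hAP le_rfl, hmk N1 ΦQ (hNA.trans hAP) hQQ, hA1, hN1, Subgroup.card_map_of_injective he,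
    Subgroup.card_map_of_injective he, ← hcardA] at hb
  have hpos : 0 < Nat.card N * Nat.card ΦQ := Nat.mul_pos Nat.card_pos Nat.card_pos
  nlinarith [Nat.mul_le_mul_left (Nat.card A * Nat.card N) nQ]

theorem conj_center (P : Subgroup S) (g : S) :
    (Subgroup.center ↥(MulAut.conj g • P)).map (MulAut.conj g • P).subtype
      = MulAut.conj g • (Subgroup.center ↥P).map P.subtype := by
  ext w
  constructor
  · rintro ⟨⟨u, hu⟩, hc, rfl⟩
    obtain ⟨v, hv, e⟩ := hu
    refine ⟨v, ⟨⟨v, hv⟩, Subgroup.mem_center_iff.2 fun y => Subtype.ext ?_, rfl⟩, e⟩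
    have := congrArg Subtype.val (Subgroup.mem_center_iff.1 hc
      ⟨MulAut.conj g y, Subgroup.mem_map_of_mem _ y.2⟩)
    simp only [Subgroup.coe_mul] at this
    have e' : MulAut.conj g v = u := e
    apply (MulAut.conj g).injective
    simp only [map_mul, Subgroup.coe_mul, e']
    exact this
  · rintro ⟨_, ⟨⟨v, hv⟩, hc, rfl⟩, rfl⟩
    refine ⟨⟨MulAut.conj g v, Subgroup.mem_map_of_mem _ hv⟩,
      Subgroup.mem_center_iff.2 fun y => Subtype.ext ?_, rfl⟩
    obtain ⟨u, hu, e⟩ := y.2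
    have e' : MulAut.conj g u = y := e
    simp only [Subgroup.coe_mul, ← e', ← map_mul]
    exact congrArg (MulAut.conj g) (congrArg Subtype.val (Subgroup.mem_center_iff.1 hc ⟨u, hu⟩))

/-- `S4401` -/
theorem centralizer_index (h2 : IsPGroup 2 S) (hr : Cfsg.SectionalPRankLE 2 4 S)
    (P : Subgroup S) (hP : ¬ IsMulCommutative ↥P) (hZP : Nat.card ↥(Subgroup.center ↥P) = 2)
    (S₀ : Subgroup S)
    (hS₀ : S₀ = Subgroup.centralizer (((Subgroup.center ↥P).map P.subtype : Subgroup S) : Set S))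
    (hPn : ∀ s ∈ S₀, ∀ x ∈ P, s * x * s⁻¹ ∈ P) :
    S₀ = ⊤ ∨ (Cfsg.SectionalPRankLE 2 2 ↥P ∧ S₀.index = 2) := by
  classical
  haveI : Fact (Nat.Prime 2) := ⟨Nat.prime_two⟩
  by_cases htop : S₀ = ⊤
  · exact Or.inl htop
  right
  obtain ⟨z, hzP, hz1, -, hzc, hz, hCP⟩ := exists_z h2 P hP hZP
  have hS₀' : ∀ w, w ∈ S₀ ↔ w * z = z * w := by
    intro w
    rw [hS₀, hCP, Subgroup.zpowers_eq_closure, Subgroup.centralizer_closure,
      Subgroup.mem_centralizer_singleton_iff]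
  have hPS : P ≤ S₀ := fun x hx => (hS₀' x).2 (hzc x hx)
  -- conjugates of `P` by normalisers of `S₀`
  set N := Subgroup.normalizer (S₀ : Set S) with hN
  have hS₀N : S₀ ≤ N := Subgroup.le_normalizer
  have hnil : Group.IsNilpotent S := h2.isNilpotent
  obtain ⟨n, hnN, hnS⟩ := SetLike.exists_of_lt
    (Group.normalizerCondition_of_isNilpotent S₀ (lt_top_iff_ne_top.2 htop))
  have conjP : ∀ g ∈ N, (∀ s ∈ S₀, ∀ x ∈ MulAut.conj g • P, s * x * s⁻¹ ∈ MulAut.conj g • P) ∧
      MulAut.conj g • P ≤ S₀ ∧ ¬ IsMulCommutative ↥(MulAut.conj g • P) ∧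
      Nat.card ↥(Subgroup.center ↥(MulAut.conj g • P)) = 2 ∧
      (∀ x ∈ MulAut.conj g • P, x * (g * z * g⁻¹) = (g * z * g⁻¹) * x) ∧
      (Subgroup.center ↥(MulAut.conj g • P)).map (MulAut.conj g • P).subtype
        = Subgroup.zpowers (g * z * g⁻¹) := by
    intro g hg
    have hm : ∀ x, x ∈ MulAut.conj g • P ↔ g⁻¹ * x * g ∈ P := fun x => by
      rw [Subgroup.mem_pointwise_smul_iff_inv_smul_mem, ← map_inv]
      simp [MulAut.smul_def, mul_assoc]
    have hg' := Subgroup.mem_normalizer_iff''.1 hg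
    refine ⟨fun s hs x hx => ?_, fun x hx => ?_, fun h => hP ⟨⟨fun a b => ?_⟩⟩, ?_, fun x hx => ?_, ?_⟩
    · rw [hm] at hx ⊢
      have := hPn _ ((hg' s).1 hs) _ hx
      simpa [mul_assoc] using this
    · have hx' := hPS ((hm x).1 hx)
      exact (hg' x).2 hx'
    · have := h.is_comm.comm ⟨_, Subgroup.smul_mem_pointwise_smul _ (MulAut.conj g) P a.2⟩
        ⟨_, Subgroup.smul_mem_pointwise_smul _ (MulAut.conj g) P b.2⟩
      have e := congrArg Subtype.val this
      simp only [Subgroup.coe_mul, MulAut.smul_def, ← map_mul] at e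
      exact Subtype.ext ((MulAut.conj g).injective e)
    · have h1 := congrArg (fun X : Subgroup S => Nat.card X) (conj_center P g)
      rw [Subgroup.card_map_of_injective (Subgroup.subtype_injective _)] at h1
      rw [h1, ← Nat.card_congr ((Subgroup.equivSMul (MulAut.conj g)
        ((Subgroup.center ↥P).map P.subtype)).toEquiv),
        Subgroup.card_map_of_injective P.subtype_injective, hZP]
    · have := hzc _ ((hm x).1 hx)
      calc x * (g * z * g⁻¹) = g * ((g⁻¹ * x * g) * z) * g⁻¹ := by group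
        _ = g * (z * (g⁻¹ * x * g)) * g⁻¹ := by rw [this]
        _ = _ := by group
    · rw [conj_center, hCP]
      show (Subgroup.zpowers z).map (MulAut.conj g).toMonoidHom = _
      rw [MonoidHom.map_zpowers]; rfl
  have hzz : orderOf z = 2 := by
    have h1 : Nat.card (Subgroup.zpowers z) = 2 := by
      rw [← hCP, Subgroup.card_map_of_injective P.subtype_injective, hZP]
    rwa [Nat.card_zpowers] at h1
  have hzp : ∀ w, w ∈ Subgroup.zpowers z → w = 1 ∨ w = z := fun w hw =>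
    hz w ((Subgroup.zpowers_le.2 hzP) hw) fun x hx => by
      obtain ⟨k, rfl⟩ := hw
      exact ((show Commute x z from hzc x hx).zpow_right k).eq
  have hzne : ∀ g ∈ N, g ∉ S₀ → g * z * g⁻¹ ≠ z := fun g _ hg e => hg ((hS₀' g).2 (by
    have := congrArg (fun u => u * g) e; simpa using this))
  have hcen_ne : ∀ g g' : S, g * z * g⁻¹ ≠ g' * z * g'⁻¹ →
      Subgroup.zpowers (g * z * g⁻¹) ≠ Subgroup.zpowers (g' * z * g'⁻¹) := by
    intro g g' h e
    obtain ⟨k, hk⟩ := Subgroup.mem_zpowers_iff.1 (e ▸ Subgroup.mem_zpowers (g * z * g⁻¹) :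
      g * z * g⁻¹ ∈ Subgroup.zpowers (g' * z * g'⁻¹))
    rw [conj_zpow] at hk
    rcases hzp (z ^ k) ⟨k, rfl⟩ with e1 | e1
    · rw [e1, mul_one, mul_inv_cancel] at hk
      exact hz1 (conj_eq_one_iff.1 hk.symm)
    · rw [e1] at hk; exact h hk.symm
  -- transfer to the group `S₀`
  have hsub : ∀ X : Subgroup S, X ≤ S₀ → (¬ IsMulCommutative ↥X → ¬ IsMulCommutative ↥(X.subgroupOf S₀)) ∧
      Nat.card ↥(Subgroup.center ↥(X.subgroupOf S₀)) = Nat.card ↥(Subgroup.center ↥X) := by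
    intro X hX
    refine ⟨fun h h' => h ⟨⟨fun a b => Subtype.ext ?_⟩⟩, ?_⟩
    · have := congrArg (fun w : X.subgroupOf S₀ => ((w : S₀) : S))
        (h'.is_comm.comm ⟨⟨a, hX a.2⟩, a.2⟩ ⟨⟨b, hX b.2⟩, b.2⟩)
      simpa using this
    · exact (Nat.card_congr (Subgroup.centerCongr (Subgroup.subgroupOfEquivOfLe hX)).toEquiv)
  have pair : ∀ g g' : S, g ∈ N → g' ∈ N → g * z * g⁻¹ ≠ g' * z * g'⁻¹ →
      (MulAut.conj g • P) ⊓ (MulAut.conj g' • P) = ⊥ ∧
      (∀ x ∈ MulAut.conj g • P, ∀ y ∈ MulAut.conj g' • P, x * y = y * x) ∧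
      ∀ w ∈ S₀, (∀ x ∈ MulAut.conj g • P, x * w = w * x) →
        (∀ x ∈ MulAut.conj g' • P, x * w = w * x) →
        ∃ a ∈ MulAut.conj g • P, ∃ b ∈ MulAut.conj g' • P, w = a * b := by
    intro g g' hg hg' hne
    obtain ⟨an, aS, ana, ac, -, aC⟩ := conjP g hg
    obtain ⟨bn, bS, bna, bc, -, bC⟩ := conjP g' hg'
    set A := (MulAut.conj g • P).subgroupOf S₀ with hA
    set B := (MulAut.conj g' • P).subgroupOf S₀ with hB
    haveI : A.Normal := ⟨fun w hw s => by
      rw [hA, Subgroup.mem_subgroupOf] at hw ⊢; exact an s s.2 _ hw⟩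
    haveI : B.Normal := ⟨fun w hw s => by
      rw [hB, Subgroup.mem_subgroupOf] at hw ⊢; exact bn s s.2 _ hw⟩
    have hA1 := (hsub _ aS).1 ana
    have hB1 := (hsub _ bS).1 bna
    have hA2 : Nat.card ↥(Subgroup.center ↥A) = 2 := (hsub _ aS).2.trans ac
    have hB2 : Nat.card ↥(Subgroup.center ↥B) = 2 := (hsub _ bS).2.trans bc
    have hd : (Subgroup.center ↥A).map A.subtype ≠ (Subgroup.center ↥B).map B.subtype := by
      intro e
      apply hcen_ne g g' hne
      rw [← aC, ← bC]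
      have hmap : ∀ (X : Subgroup S) (hX : X ≤ S₀),
          ((Subgroup.center ↥(X.subgroupOf S₀)).map (X.subgroupOf S₀).subtype).map S₀.subtype
            = (Subgroup.center ↥X).map X.subtype := by
        intro X hX
        ext w
        constructor
        · rintro ⟨_, ⟨v, hv, rfl⟩, rfl⟩
          refine ⟨⟨_, v.2⟩, Subgroup.mem_center_iff.2 fun y => Subtype.ext ?_, rfl⟩
          exact congrArg (fun u : X.subgroupOf S₀ => ((u : S₀) : S))
            (Subgroup.mem_center_iff.1 hv ⟨⟨y, hX y.2⟩, y.2⟩)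
        · rintro ⟨v, hv, rfl⟩
          refine ⟨⟨v, hX v.2⟩, ⟨⟨⟨v, hX v.2⟩, v.2⟩,
            Subgroup.mem_center_iff.2 fun y => Subtype.ext (Subtype.ext ?_), rfl⟩, rfl⟩
          simpa using congrArg Subtype.val (Subgroup.mem_center_iff.1 hv ⟨((y : S₀) : S), y.2⟩)
      rw [← hmap _ aS, ← hmap _ bS, ← hA, ← hB, e]
    have h2' := h2.to_subgroup S₀
    obtain ⟨hbot, hcomm⟩ := disjoint_commute h2' A B hA1 hB1 hA2 hB2 hd
    refine ⟨(Subgroup.eq_bot_iff_forall _).2 fun x hx => ?_, fun x hx y hy =>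
      congrArg Subtype.val (hcomm ⟨x, aS hx⟩ hx ⟨y, bS hy⟩ hy), fun w hw hwa hwb => ?_⟩
    · exact congrArg Subtype.val ((Subgroup.eq_bot_iff_forall _).1 hbot ⟨x, aS hx.1⟩ ⟨hx.1, hx.2⟩)
    · have hle := centralizer_le h2' (sectional_of_subgroup hr S₀) A B hA1 hB1 hA2 hB2 hd
      have hwc : (⟨w, hw⟩ : S₀) ∈ Subgroup.centralizer ((A ⊔ B : Subgroup S₀) : Set S₀) := by
        rw [Subgroup.mem_centralizer_iff]
        intro y hy
        obtain ⟨a, ha, b, hb, rfl⟩ := Subgroup.mem_sup_of_normal_left.1 hy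
        apply Subtype.ext
        show (a : S) * b * w = w * (a * b)
        rw [mul_assoc, hwb (b : S) hb, ← mul_assoc, hwa (a : S) ha, mul_assoc]
      obtain ⟨a, ha, b, hb, e⟩ := Subgroup.mem_sup_of_normal_left.1 (hle hwc)
      exact ⟨a, ha, b, hb, (congrArg Subtype.val e).symm⟩
  have h1N : (1 : S) ∈ N := N.one_mem
  have hone : MulAut.conj (1 : S) • P = P := by simp
  set z' := n * z * n⁻¹ with hz'
  set P' := MulAut.conj n • P with hP'
  have hz'z : z' ≠ z := hzne n hnN hnS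
  obtain ⟨hbot, hcomm, hself⟩ := pair 1 n h1N hnN (by simpa using hz'z.symm)
  rw [hone] at hbot hcomm hself
  obtain ⟨-, hP'S, hP'na, -, hz'c, -⟩ := conjP n hnN
  have hrank : Cfsg.SectionalPRankLE 2 2 ↥P :=
    sectional_le_two h2 hr P P' hP'na hbot hcomm
  refine ⟨hrank, ?_⟩
  -- every element of `N ∖ S₀` interchanges `z` and `z'`
  have hswap : ∀ g ∈ N, g ∉ S₀ → g * z * g⁻¹ = z' := by
    intro g hg hgS
    by_contra hne
    obtain ⟨-, hgS₀, hgna, -, -, -⟩ := conjP g hg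
    obtain ⟨-, hgc, -⟩ := pair g 1 hg h1N (by simpa using hzne g hg hgS)
    obtain ⟨-, hgc', -⟩ := pair g n hg hnN hne
    rw [hone] at hgc
    refine hgna ⟨⟨fun x y => Subtype.ext ?_⟩⟩
    have key : ∀ w ∈ MulAut.conj g • P, ∃ a, (a = 1 ∨ a = z) ∧ ∃ b ∈ P',
        (∀ x ∈ P', x * b = b * x) ∧ w = a * b := by
      intro w hw
      obtain ⟨a, ha, b, hb, rfl⟩ := hself w (hgS₀ hw) (fun x hx => (hgc w hw x hx).symm)
        (fun x hx => (hgc' w hw x hx).symm)
      refine ⟨a, hz a ha fun x hx => ?_, b, hb, fun x hx => ?_, rfl⟩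
      · have h1 : Commute x (a * b) := (hgc _ hw x hx).symm
        have h2 : Commute x b := hcomm x hx b hb
        have := h1.mul_right h2.inv_right
        rw [mul_inv_cancel_right] at this
        exact this.eq
      · have h1 : Commute x (a * b) := (hgc' _ hw x hx).symm
        have h2 : Commute x a := (hcomm a ha x hx).symm
        have := h2.inv_right.mul_right h1
        rw [inv_mul_cancel_left] at this
        exact this.eq
    obtain ⟨a, ha, b, hb, hbc, ex⟩ := key x x.2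
    obtain ⟨a', ha', b', hb', hbc', ey⟩ := key y y.2
    have hzall : ∀ v, v = 1 ∨ v = z → ∀ w ∈ P', Commute v w := by
      rintro v (rfl | rfl) w hw
      · exact Commute.one_left w
      · exact hcomm _ hzP w hw
    have hzv : ∀ u v : S, (u = 1 ∨ u = z) → (v = 1 ∨ v = z) → Commute u v := by
      rintro u v (rfl | rfl) (rfl | rfl) <;> simp [Commute, SemiconjBy]
    simp only [Subgroup.coe_mul, ex, ey]
    exact (((hzv a a' ha ha').mul_right (hzall a ha b' hb')).mul_left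
      (((hzall a' ha' b hb).symm).mul_right (show Commute b b' from hbc' b hb))).eq
  have hNidx : ∀ g ∈ N, g ∉ S₀ → ∀ g' ∈ N, g' ∉ S₀ → g⁻¹ * g' ∈ S₀ := by
    intro g hg hgS g' hg' hg'S
    rw [hS₀']
    have e := (hswap g hg hgS).trans (hswap g' hg' hg'S).symm
    calc g⁻¹ * g' * z = g⁻¹ * (g' * z * g'⁻¹) * g' := by group
      _ = g⁻¹ * (g * z * g⁻¹) * g' := by rw [e]
      _ = _ := by group
  by_cases hNtop : N = ⊤
  · rw [Subgroup.index_eq_two_iff]
    refine ⟨n⁻¹, fun b => ?_⟩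
    haveI : S₀.Normal := Subgroup.normalizer_eq_top_iff.1 hNtop
    have h1 : b * n⁻¹ ∈ S₀ ↔ n⁻¹ * b ∈ S₀ := (inferInstance : S₀.Normal).mem_comm_iff
    by_cases hb : b ∈ S₀
    · refine Or.inr ⟨hb, fun h' => hnS ?_⟩
      simpa using S₀.mul_mem (S₀.inv_mem h') hb
    · exact Or.inl ⟨h1.2 (hNidx n hnN hnS b (hNtop ▸ Subgroup.mem_top b) hb), hb⟩
  exfalso
  obtain ⟨s, hsN, hsS⟩ := SetLike.exists_of_lt
    (Group.normalizerCondition_of_isNilpotent N (lt_top_iff_ne_top.2 hNtop))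
  have hnn : n * n ∈ S₀ := by
    by_contra h
    have := hNidx n hnN hnS (n * n) (N.mul_mem hnN hnN) h
    simp at this; exact hnS this
  have hz'n : n * z' * n⁻¹ = z := by
    have := (hS₀' _).1 hnn
    calc n * z' * n⁻¹ = (n * n) * z * (n * n)⁻¹ := by rw [hz']; group
      _ = z := by rw [this, mul_inv_cancel_right]
  have hzS : z ∈ S₀ := hPS hzP
  have hzz' : z * z' = z' * z := hcomm z hzP z' ((Subgroup.smul_mem_pointwise_smul_iff
      (a := MulAut.conj n) (S := P)).2 hzP)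
  set w := z * z' with hw
  -- `w` is central in `N`, and characterised by this
  have hwN : ∀ g ∈ N, g * w = w * g := by
    have h0 : ∀ g ∈ S₀, Commute g z ∧ Commute g z' := by
      intro g hg
      refine ⟨(hS₀' g).1 hg, ?_⟩
      have hg' : n⁻¹ * g * n ∈ S₀ := (Subgroup.mem_normalizer_iff''.1 hnN g).1 hg
      show g * z' = z' * g
      calc g * z' = n * ((n⁻¹ * g * n) * z) * n⁻¹ := by rw [hz']; group
        _ = n * (z * (n⁻¹ * g * n)) * n⁻¹ := by rw [(hS₀' _).1 hg']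
        _ = _ := by rw [hz']; group
    intro g hg
    by_cases hgS : g ∈ S₀
    · exact ((h0 g hgS).1.mul_right (h0 g hgS).2).eq
    · have hs := hNidx n hnN hnS g hg hgS
      have hcn : n * w * n⁻¹ = w := by
        calc n * w * n⁻¹ = (n * z * n⁻¹) * (n * z' * n⁻¹) := by rw [hw]; group
          _ = w := by rw [hz'n, ← hz']; exact hzz'.symm
      have hn' : Commute n w := mul_inv_eq_iff_eq_mul.1 hcn
      have := hn'.mul_left ((h0 _ hs).1.mul_right (h0 _ hs).2)
      rw [mul_inv_cancel_left] at this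
      exact this.eq
  have hwne : w ≠ 1 ∧ w ≠ z ∧ w ≠ z' := by
    refine ⟨fun e => hz'z ?_, fun e => hz'z ?_, fun e => hz1 (mul_eq_right.1 e)⟩
    · have h2z : z * z = 1 := by rw [← pow_two, ← hzz, pow_orderOf_eq_one]
      exact mul_left_cancel (e.trans h2z.symm)
    · have := mul_eq_left.1 e; rw [hz', conj_eq_one_iff] at this; exact absurd this hz1
  have hwuniq : ∀ c ∈ N, (∀ g ∈ N, g * c = c * g) → c = 1 ∨ c = w := by
    intro c hc hcc
    have hcS : c ∈ S₀ := (hS₀' c).2 (hcc z (hS₀N hzS)).symm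
    obtain ⟨a, ha, b, hb, rfl⟩ := hself c hcS (fun x hx => hcc x (hS₀N (hPS hx)))
      (fun x hx => hcc x (hS₀N (hP'S hx)))
    have ha' : a = 1 ∨ a = z := hz a ha fun x hx => by
      have := (show Commute x (a * b) from hcc x (hS₀N (hPS hx))).mul_right
        (show Commute x b from hcomm x hx b hb).inv_right
      rw [mul_inv_cancel_right] at this
      exact this.eq
    have hb' : b = 1 ∨ b = z' := by
      have hbc : ∀ x ∈ P', x * b = b * x := fun x hx => by
        have := (show Commute x a from (hcomm a ha x hx).symm).inv_right.mul_right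
          (show Commute x (a * b) from hcc x (hS₀N (hP'S hx)))
        rw [inv_mul_cancel_left] at this
        exact this.eq
      obtain ⟨u, hu, rfl⟩ := hb
      have hu' := hz u hu fun x hx => by
        have := hbc _ (Subgroup.smul_mem_pointwise_smul _ (MulAut.conj n) P hx)
        exact (MulAut.conj n).injective (by simpa [MulAut.smul_def] using this)
      rcases hu' with rfl | rfl
      · left; simp
      · right; rfl
    have hn := hcc n hnN
    rcases ha' with rfl | rfl <;> rcases hb' with rfl | rfl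
    · left; simp
    · exfalso; apply hz'z
      rw [one_mul] at hn
      rw [← hz'n, hn, mul_inv_cancel_right]
    · exfalso; apply hz'z
      rw [mul_one] at hn
      rw [hz', hn, mul_inv_cancel_right]
    · exact Or.inr rfl
  -- the conjugate by `s`
  have hs : ∀ g, g ∈ N ↔ s⁻¹ * g * s ∈ N := Subgroup.mem_normalizer_iff''.1 hsN
  have hs' : ∀ g, g ∈ N → s * g * s⁻¹ ∈ N := fun g hg => (Subgroup.mem_normalizer_iff.1 hsN g).1 hg
  have hw1N : w ∈ N := N.mul_mem (hS₀N hzS) (hS₀N (hP'S ((Subgroup.smul_mem_pointwise_smul_iff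
      (a := MulAut.conj n) (S := P)).2 hzP)))
  have hsw : s * w * s⁻¹ = w := by
    refine (hwuniq _ (hs' w hw1N) fun g hg => ?_).resolve_left fun e =>
      hwne.1 (conj_eq_one_iff.1 e)
    calc g * (s * w * s⁻¹) = s * ((s⁻¹ * g * s) * w) * s⁻¹ := by group
      _ = s * (w * (s⁻¹ * g * s)) * s⁻¹ := by rw [hwN _ ((hs g).1 hg)]
      _ = _ := by group
  set v := s * z * s⁻¹ with hv
  have hvN : v ∈ N := hs' z (hS₀N hzS)
  -- elements of `N` act on `v` through the two cosets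
  have hvact : ∀ g ∈ N, g * v * g⁻¹ = v ∨ g * v * g⁻¹ = v * w := by
    intro g hg
    have hg' := (hs g).1 hg
    by_cases hgS : s⁻¹ * g * s ∈ S₀
    · left
      calc g * v * g⁻¹ = s * ((s⁻¹ * g * s) * z * (s⁻¹ * g * s)⁻¹) * s⁻¹ := by rw [hv]; group
        _ = _ := by rw [(hS₀' _).1 hgS, mul_inv_cancel_right]
    · right
      calc g * v * g⁻¹ = s * ((s⁻¹ * g * s) * z * (s⁻¹ * g * s)⁻¹) * s⁻¹ := by rw [hv]; group
        _ = s * (z * w) * s⁻¹ := by
            rw [hswap _ hg' hgS, show z * w = z' by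
              rw [hw, ← mul_assoc, show z * z = 1 by
                rw [← pow_two, ← hzz, pow_orderOf_eq_one], one_mul]]
        _ = v * (s * w * s⁻¹) := by rw [hv]; group
        _ = v * w := by rw [hsw]
  have hvidx : ∀ x ∈ N, ∀ y ∈ N, x * v ≠ v * x → y * v ≠ v * y → (x⁻¹ * y) * v = v * (x⁻¹ * y) := by
    intro x hx y hy hxv hyv
    have hout : ∀ g ∈ N, g * v ≠ v * g → s⁻¹ * g * s ∉ S₀ := by
      intro g _ hgv h
      apply hgv
      calc g * v = s * ((s⁻¹ * g * s) * z) * s⁻¹ := by rw [hv]; group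
        _ = s * (z * (s⁻¹ * g * s)) * s⁻¹ := by rw [(hS₀' _).1 h]
        _ = _ := by rw [hv]; group
    have h := (hS₀' _).1 (hNidx _ ((hs x).1 hx) (hout x hx hxv) _ ((hs y).1 hy) (hout y hy hyv))
    calc x⁻¹ * y * v = s * ((s⁻¹ * x * s)⁻¹ * (s⁻¹ * y * s) * z) * s⁻¹ := by rw [hv]; group
      _ = s * (z * ((s⁻¹ * x * s)⁻¹ * (s⁻¹ * y * s))) * s⁻¹ := by rw [h]
      _ = _ := by rw [hv]; group
  -- `v` lies in `S₀`
  have hvS : v ∈ S₀ := by
    by_contra hvS
    have hvz : v * z * v⁻¹ = z' := hswap v hvN hvS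
    obtain ⟨hb', -, -⟩ := pair 1 v h1N hvN (by simpa [hvz] using hz'z.symm)
    rw [hone] at hb'
    have hfix : ∀ x ∈ P, x * v = v * x → x = 1 := by
      intro x hx hxv
      refine (Subgroup.eq_bot_iff_forall _).1 hb' x ⟨hx, ?_⟩
      have : x = MulAut.conj v x := by
        rw [MulAut.conj_apply, ← hxv, mul_inv_cancel_right]
      rw [this]
      exact Subgroup.smul_mem_pointwise_smul _ _ _ hx
    have hall : ∀ x ∈ P, x ≠ 1 → x = z := by
      intro x hx hx1
      have h := hvidx x (hS₀N (hPS hx)) z (hS₀N hzS) (fun e => hx1 (hfix x hx e))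
        (fun e => hz1 (hfix z hzP e))
      exact inv_mul_eq_one.1 (hfix _ (P.mul_mem (P.inv_mem hx) hzP) h)
    refine hP ⟨⟨fun x y => Subtype.ext ?_⟩⟩
    show (x : S) * y = y * x
    rcases eq_or_ne (x : S) 1 with e | e
    · simp [e]
    rcases eq_or_ne (y : S) 1 with e' | e'
    · simp [e']
    rw [hall x x.2 e, hall y y.2 e']
  -- `v` centralises both factors
  have hz'P' : z' ∈ P' := (Subgroup.smul_mem_pointwise_smul_iff (a := MulAut.conj n) (S := P)).2 hzP
  have hcen : ∀ g ∈ N, ∀ X : Subgroup S, (∀ t ∈ S₀, ∀ x ∈ X, t * x * t⁻¹ ∈ X) → g ∈ X → w ∉ X →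
      g * v = v * g := by
    intro g hg X hX hgX hwX
    rcases hvact g hg with e | e
    · exact mul_inv_eq_iff_eq_mul.1 e
    · exfalso; apply hwX
      have h1 := X.mul_mem hgX (hX v hvS g⁻¹ (X.inv_mem hgX))
      have h2 : g * (v * g⁻¹ * v⁻¹) = v * w * v⁻¹ := by rw [← e]; group
      rw [h2, hwN v hvN, mul_inv_cancel_right] at h1
      exact h1
  have hwP : w ∉ P := fun h => by
    have : z' ∈ P := by
      have := P.mul_mem (P.inv_mem hzP) h
      rwa [hw, inv_mul_cancel_left] at this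
    have := (Subgroup.eq_bot_iff_forall _).1 hbot z' ⟨this, hz'P'⟩
    rw [hz', conj_eq_one_iff] at this
    exact hz1 this
  have hwP' : w ∉ P' := fun h => by
    have : z ∈ P' := by
      have := P'.mul_mem h (P'.inv_mem hz'P')
      rwa [hw, mul_inv_cancel_right] at this
    exact hz1 ((Subgroup.eq_bot_iff_forall _).1 hbot z ⟨hzP, this⟩)
  have hPn' := (conjP n hnN).1
  obtain ⟨a, ha, b, hb, hab⟩ := hself v hvS
    (fun x hx => hcen x (hS₀N (hPS hx)) P hPn hx hwP)
    (fun x hx => hcen x (hS₀N (hP'S hx)) P' hPn' hx hwP')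
  have ha' : a = 1 ∨ a = z := hz a ha fun x hx => by
    have h0 : Commute x (a * b) := hab ▸ hcen x (hS₀N (hPS hx)) P hPn hx hwP
    have := h0.mul_right (show Commute x b from hcomm x hx b hb).inv_right
    rw [mul_inv_cancel_right] at this
    exact this.eq
  have hb' : b = 1 ∨ b = z' := by
    have hbc : ∀ x ∈ P', x * b = b * x := fun x hx => by
      have h0 : Commute x (a * b) := hab ▸ hcen x (hS₀N (hP'S hx)) P' hPn' hx hwP'
      have := (show Commute x a from (hcomm a ha x hx).symm).inv_right.mul_right h0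
      rw [inv_mul_cancel_left] at this
      exact this.eq
    obtain ⟨u, hu, rfl⟩ := hb
    have hu' := hz u hu fun x hx => by
      have := hbc _ (Subgroup.smul_mem_pointwise_smul _ (MulAut.conj n) P hx)
      exact (MulAut.conj n).injective (by simpa [MulAut.smul_def] using this)
    rcases hu' with rfl | rfl
    · left; simp
    · right; rfl
  have hvzz : v = z ∨ v = z' := by
    rcases ha' with rfl | rfl <;> rcases hb' with rfl | rfl
    · exact absurd (by rw [hv] at hab; simpa using hab) hz1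
    · right; rw [hab, one_mul]
    · left; rw [hab, mul_one]
    · exfalso
      rw [hv] at hab
      exact hwne.2.1 ((mul_left_cancel (mul_right_cancel (hab.trans hsw.symm))).symm)
  -- so `s` normalises `S₀`
  apply hsS
  refine CfsgLib.RankTwoTwo.mem_normalizer_of_conj fun g hg => ?_
  have hgN' : s * g * s⁻¹ ∈ N := hs' g (hS₀N hg)
  have hgv : (s * g * s⁻¹) * v = v * (s * g * s⁻¹) := by
    calc (s * g * s⁻¹) * v = s * (g * z) * s⁻¹ := by rw [hv]; group
      _ = s * (z * g) * s⁻¹ := by rw [(hS₀' g).1 hg]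
      _ = _ := by rw [hv]; group
  rcases hvzz with e | e
  · exact (hS₀' _).2 (e ▸ hgv)
  · by_contra hgS
    have h1 := hswap _ hgN' hgS
    have h2 : z' = z := by
      rw [e] at hgv
      have h3 : (s * g * s⁻¹) * z' * (s * g * s⁻¹)⁻¹ = z' := by rw [hgv, mul_inv_cancel_right]
      have h4 := h1.trans h3.symm
      exact (mul_left_cancel (mul_right_cancel h4)).symm
    exact hz'z h2

end CfsgLib.RankTwoTwo.Four
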